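import Cfsg.Agent.InvolFour.RankCert
import Mathlib.Algebra.BigOperators.Fin

/-!
# Products of bit matrices by exclusive-or of rows (owner: helper52)
-/

set_option autoImplicit false

namespace Cfsg.Agent.InvolTwist

open Cfsg.Agent.InvolFour

/-- The combination of the rows `B` selected by the bits of `a`. -/
def rowMul (a : ℕ) (B : List ℕ) : ℕ → ℕ
  | 0 => 0
  | p + 1 => rowMul a B p ^^^ if a.testBit p then B.getD p 0 else 0

theorem cast_xor (a b : Bool) :
    (if (a ^^ b) = true then (1 : ZMod 2) else 0) = (if a then 1 else 0) + if b then 1 else 0 := by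
  cases a <;> cases b <;> decide

theorem rowMul_spec (a : ℕ) (B : List ℕ) (j : ℕ) : ∀ p,
    (if (rowMul a B p).testBit j then (1 : ZMod 2) else 0) =
      ∑ i ∈ Finset.range p, (if a.testBit i then (1 : ZMod 2) else 0) *
        if (B.getD i 0).testBit j then 1 else 0
  | 0 => by simp [rowMul]
  | p + 1 => by
    rw [rowMul, Nat.testBit_xor, cast_xor, rowMul_spec a B j p, Finset.sum_range_succ]
    congr 1
    by_cases h : a.testBit p <;> simp [h]

theorem bm_mul {m p n : ℕ} {A B C : List ℕ} (h : ∀ i < m, rowMul (A.getD i 0) B p = C.getD i 0) :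
    bm A m p * bm B p n = bm C m n := by
  ext i j
  simp only [Matrix.mul_apply, bm, Matrix.of_apply]
  rw [← h i i.2, rowMul_spec, Fin.sum_univ_eq_sum_range
    (fun k => (if (A.getD i.val 0).testBit k then (1 : ZMod 2) else 0) * if (B.getD k 0).testBit j.val then 1 else 0) p]

theorem bm_comb {n : ℕ} {A B C : List ℕ}
    (h : ∀ i < n, rowMul (A.getD i 0) B n ^^^ A.getD i 0 ^^^ B.getD i 0 = C.getD i 0) :
    bm A n n * bm B n n + bm A n n + bm B n n = bm C n n := by
  have e : bm A n n * bm B n n = bm ((List.range n).map fun i => rowMul (A.getD i 0) B n) n n :=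
    bm_mul fun i hi => by simp [List.getD_eq_getElem?_getD, hi]
  rw [e]
  ext i j
  simp only [Matrix.add_apply, bm, Matrix.of_apply, ← cast_xor, ← h i i.2, Nat.testBit_xor]
  congr 2
  simp [List.getD_eq_getElem?_getD, i.2]

/-- A rank certificate fits a bit matrix. -/
theorem rankCert_ok {m n : ℕ} [NeZero m] [NeZero n] {c : RankCert} {A S : List ℕ}
    (h1 : ∀ i < m, rowMul (c.X.getD i 0) c.Y c.k = A.getD i 0)
    (h2 : (bm A m n).submatrix (fun i : Fin c.k => Fin.ofNat m (c.rows.getD i.val 0))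
      (fun j : Fin c.k => Fin.ofNat n (c.cols.getD j.val 0)) = bm S c.k c.k)
    (h3 : ∀ i < c.k, rowMul (S.getD i 0) c.M c.k = 2 ^ i) : c.OK (bm A m n) := by
  refine ⟨bm_mul h1, ?_⟩
  rw [h2, bm_mul (C := (List.range c.k).map (2 ^ ·)) fun i hi => by
    rw [h3 i hi]; simp [List.getD_eq_getElem?_getD, hi]]
  ext i j
  simp [bm, List.getD_eq_getElem?_getD, Nat.testBit_two_pow, Matrix.one_apply, Fin.ext_iff]

end Cfsg.Agent.InvolTwist
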