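import Cfsg.Agent.InvolFour.Fuse

/-!
# Twisted groups in characteristic two: the fixed points of an involutory twist (owner: helper52)
-/

set_option autoImplicit false

namespace Cfsg.Agent.InvolTwist

open Cfsg.Lie Cfsg.Agent.ChevGrp Cfsg.Agent.InvolFour
open scoped MatrixGroups

/-- The tables of a twist: the permutation of roots and nodes, the orbit words and a longest orbit sequence. -/
structure TwDat (n : ℕ) where
  rho : List ℕ
  nu : List ℕ
  orbW : List (List (Fin n))
  w0 : List ℕ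

/-- The permutation of the roots. -/
def TwDat.rt {n : ℕ} (d : TwDat n) (r : ℕ) : ℕ := d.rho.getD r 0

/-- The word of a sequence of orbits. -/
def TwDat.word {n : ℕ} (d : TwDat n) (ks : List ℕ) : List (Fin n) := ks.flatMap fun k => d.orbW.getD k []

/-- The conditions on the tables of a twist. -/
def datOK (D : ChevalleyDatum) (d : TwDat D.rank) : Bool :=
  (List.range D.nroots).all fun r =>
    decide (d.rt r < D.nroots) && d.rt (d.rt r) == r && (!decide (D.IsPosRoot r) || decide (D.IsPosRoot (d.rt r))) &&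
    comB D r (d.rt r) && comB D (d.rt r) r &&
    act D (d.word d.w0) (d.rt r) == d.rt (act D (d.word d.w0) r) &&
    (decide (D.IsPosRoot r) || decide (D.IsPosRoot (act D (d.word d.w0) r)))

/-- The set is stable under the twist. -/
def stableB {n : ℕ} (d : TwDat n) (L : List ℕ) : Bool := L.all fun r => L.contains (d.rt r)

variable {D : ChevalleyDatum} {F : Type*} [Field F]

/-- A group of fixed points of a twist. -/
structure TwCtx (hS : Rules D F) (d : TwDat D.rank) where
  φ : F →+* F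
  σ : GL D.Idx F →* GL D.Idx F
  Tw : Subgroup (GL D.Idx F)
  lam : F
  dat : datOK D d = true
  φ_invol : ∀ t, φ (φ t) = t
  lam_tr : lam + φ lam = 1
  σ_x : ∀ r < D.nroots, ∀ t, σ (xGL D F r t) = xGL D F (d.rt r) (φ t)
  fixed : ∀ g ∈ Tw, σ g = g
  le : Tw ≤ D.group F
  mem_U : ∀ g ∈ (glSys hS).US (posSet D), σ g = g → g ∈ Tw
  nW_mem : ∀ k, (glSys hS).nW (d.orbW.getD k []) ∈ Tw
  tau_mem : ∀ (len : ℕ → ℕ) (hR : RootTable D len) (c : Fin D.rank → Fˣ),
    (∀ i j : Fin D.rank, d.nu.getD i 0 = j.val → (c j : F) = φ (c i)) →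
    (glSys hS).tau hS hR (glSys_HMul hS hR) c ∈ Tw

namespace TwCtx

variable {hS : Rules D F} {d : TwDat D.rank} (C : TwCtx hS d)

include C in
theorem rt_spec {r : ℕ} (hr : r < D.nroots) :
    d.rt r < D.nroots ∧ d.rt (d.rt r) = r ∧ (D.IsPosRoot r → D.IsPosRoot (d.rt r)) ∧
      comB D r (d.rt r) = true ∧ comB D (d.rt r) r = true ∧
      act D (d.word d.w0) (d.rt r) = d.rt (act D (d.word d.w0) r) ∧
      (D.IsPosRoot r ∨ D.IsPosRoot (act D (d.word d.w0) r)) := by
  have h := C.dat
  simp only [datOK, List.all_eq_true, List.mem_range, Bool.and_eq_true, decide_eq_true_eq, beq_iff_eq,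
    Bool.or_eq_true, Bool.not_eq_true', decide_eq_false_iff_not] at h
  obtain ⟨⟨⟨⟨⟨⟨h1, h2⟩, h3⟩, h4⟩, h5⟩, h6⟩, h7⟩ := h r hr
  exact ⟨h1, h2, fun hp => h3.resolve_left (fun hn => hn hp), h4, h5, h6, h7⟩

theorem word_mem (ks : List ℕ) : (glSys hS).nW (d.word ks) ∈ C.Tw := by
  induction ks with
  | nil => simpa [TwDat.word, Sys.nW_nil] using one_mem C.Tw
  | cons k ks ih =>
    rw [TwDat.word, List.flatMap_cons, Sys.nW_append]
    exact mul_mem (C.nW_mem k) ih

theorem σ_US {T : Set ℕ} (hT : ∀ r ∈ T, r < D.nroots) (hst : ∀ r ∈ T, d.rt r ∈ T) {g : GL D.Idx F}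
    (hg : g ∈ (glSys hS).US T) : C.σ g ∈ (glSys hS).US T := by
  refine Subgroup.closure_induction (p := fun g _ => C.σ g ∈ (glSys hS).US T) ?_ ?_ ?_ ?_ hg
  · rintro _ ⟨r, hr, t, rfl⟩
    rw [show C.σ ((glSys hS).x r t) = xGL D F (d.rt r) (C.φ t) from C.σ_x r (hT r hr) t]
    exact (glSys hS).x_mem_US (hst r hr) _
  · rw [map_one]
    exact one_mem _
  · intro a b _ _ ha hb
    rw [map_mul]
    exact mul_mem ha hb
  · intro a _ ha
    rw [map_inv]
    exact inv_mem ha

/-- The fixed element over the orbit of a root. -/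
noncomputable def unit (C : TwCtx hS d) (r : ℕ) (t : F) : GL D.Idx F :=
  if d.rt r = r then xGL D F r t else xGL D F r t * xGL D F (d.rt r) (C.φ t)

variable [CharP F 2] {len : ℕ → ℕ} (hR : RootTable D len)

include hR in
theorem σ_unit {r : ℕ} (hr : r < D.nroots) {t : F} (ht : d.rt r = r → C.φ t = t) :
    C.σ (C.unit r t) = C.unit r t := by
  obtain ⟨h1, h2, -, -, h5, -⟩ := C.rt_spec hr
  by_cases e : d.rt r = r
  · simp [unit, e, C.σ_x r hr, ht e]
  · simp only [unit, if_neg e, map_mul, C.σ_x r hr, C.σ_x _ h1, h2, C.φ_invol]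
    exact (commute_x hS hR h1 hr h5 _ _).eq

include hR in
theorem unit_mem {r : ℕ} (hr : r < D.nroots) {t : F} (ht : d.rt r = r → C.φ t = t) : C.unit r t ∈ C.Tw := by
  have key : ∀ s, D.IsPosRoot s → ∀ u : F, (d.rt s = s → C.φ u = u) → C.unit s u ∈ C.Tw := by
    intro s hs u hu
    refine C.mem_U _ ?_ (C.σ_unit hR hs.1 hu)
    obtain ⟨-, -, hp, -⟩ := C.rt_spec hs.1
    by_cases e : d.rt s = s
    · simp only [unit, if_pos e]
      exact (glSys hS).x_mem_US (T := posSet D) hs u
    · simp only [unit, if_neg e]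
      exact mul_mem ((glSys hS).x_mem_US (T := posSet D) hs u) ((glSys hS).x_mem_US (T := posSet D) (hp hs) _)
  obtain ⟨h1, h2, -, -, -, h6, h7⟩ := C.rt_spec hr
  rcases h7 with hp | hp
  · exact key r hp t ht
  · set w := d.word d.w0
    have hn : (glSys hS).nW w ∈ C.Tw := C.word_mem d.w0
    have hs : act D w r < D.nroots := hR.act_lt _ hr
    have hrt : d.rt (act D w r) = act D w r ↔ d.rt r = r := by
      rw [← h6]
      exact ⟨fun e => hR.act_inj _ h1 hr e, fun e => by rw [e]⟩
    have hmem := key _ hp t fun e => ht (hrt.1 e)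
    have e : (glSys hS).nW w * C.unit r t * ((glSys hS).nW w)⁻¹ = C.unit (act D w r) t := by
      by_cases e : d.rt r = r
      · simp only [unit, if_pos e, if_pos (hrt.2 e)]
        exact nW_conj hS hR w hr t
      · simp only [unit, if_neg e, if_neg fun e' => e (hrt.1 e')]
        rw [← h6, ← nW_conj hS hR w hr t, ← nW_conj hS hR w h1 (C.φ t)]
        simp [mul_assoc]
    have h := mul_mem (mul_mem (inv_mem hn) hmem) hn
    rw [← e] at h
    simpa [mul_assoc] using h

end TwCtx

end Cfsg.Agent.InvolTwist
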