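import Cfsg.Agent.InvolTwist.E6Table

/-!
# The reduction table of 2E6 is correct (owner: helper52)
-/

set_option autoImplicit false

namespace Cfsg.Agent.InvolTwist.E6

open Cfsg.Lie

set_option maxHeartbeats 0 in
set_option maxRecDepth 100000 in
theorem dat_ok : datOK chevE6 dat = true := by
  decide +kernel

set_option maxHeartbeats 0 in
set_option maxRecDepth 100000 in
theorem table_ok : tallOK chevE6 dat tgts nodeList = true := by
  decide +kernel

end Cfsg.Agent.InvolTwist.E6
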