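import Cfsg.Agent.InvolTwist.E6Table
import Cfsg.Agent.ChevTw.TwE6Diag
import Cfsg.Agent.InvolTwist.Ctx

/-!
# The group 2E6(q), q even, as a group of fixed points for the reduction (owner: helper52)
-/

set_option autoImplicit false

namespace Cfsg.Agent.InvolTwist.E6

open Cfsg.Lie Cfsg.Agent.ChevGrp Cfsg.Agent.InvolFour
open Cfsg.Agent.ChevTw (twE6 twE6_ok rulesE6 twistE6 orbE6 grpE6 frobE6 frobE6_apply pow_pow_q)
open scoped MatrixGroups

theorem twist_tables : (∀ r < 72, dat.rt r = twE6.root r) ∧ (∀ r < 72, twE6.root r < 72) ∧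
    (∀ i : Fin chevE6.rank, dat.nu.getD i 0 = [5, 1, 4, 3, 2, 0].getD i.val 0) := by decide +kernel

theorem simple_tables : chevE6.simple (⟨1, by decide⟩ : Fin chevE6.rank).val = 46 ∧ chevE6.simple (⟨3, by decide⟩ : Fin chevE6.rank).val = 39 ∧
    chevE6.simple (⟨2, by decide⟩ : Fin chevE6.rank).val = 42 ∧ chevE6.simple (⟨4, by decide⟩ : Fin chevE6.rank).val = 37 ∧
    chevE6.simple (⟨0, by decide⟩ : Fin chevE6.rank).val = 56 ∧ chevE6.simple (⟨5, by decide⟩ : Fin chevE6.rank).val = 36 := by decide +kernel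

variable {K : Type*} [Field K] [Fintype K] [CharP K 2] {q : ℕ}

theorem prime_pow (hK : Fintype.card K = q ^ 2) : IsPrimePow q := by
  obtain ⟨n, hn⟩ := FiniteField.card K 2
  obtain ⟨i, -, rfl⟩ := (Nat.dvd_prime_pow Nat.prime_two).1 (Dvd.intro q (by rw [← hn.2, hK, sq]) : q ∣ 2 ^ (n : ℕ))
  refine ⟨2, i, Nat.prime_two.prime, Nat.pos_of_ne_zero ?_, rfl⟩
  rintro rfl
  have := Fintype.one_lt_card (α := K)
  simp [hK] at this

theorem exists_lam (hq : IsPrimePow q) (hK : Fintype.card K = q ^ 2) :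
    ∃ a : K, a + frobE6 hq hK a = 1 := by
  classical
  set φ := frobE6 hq hK with hφ
  have hinv : ∀ t, φ (φ t) = t := fun t => by rw [hφ, frobE6_apply, frobE6_apply, pow_pow_q hK]
  obtain ⟨t, ht⟩ : ∃ t : K, t ^ q ≠ t := by
    by_contra hcon
    push Not at hcon
    have h := ChevTw.card_fixed (K := K) hq.one_lt hK
    rw [Nat.card_congr (Equiv.subtypeUnivEquiv hcon), Nat.card_eq_fintype_card, hK] at h
    have := hq.two_le
    nlinarith
  have hv : t + φ t ≠ 0 := fun e => ht (by rw [← frobE6_apply hq hK]; exact (CharTwo.add_eq_zero.1 e).symm)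
  refine ⟨t / (t + φ t), ?_⟩
  rw [map_div₀, map_add, hinv, add_comm (φ t) t, ← add_div, div_self hv]

/-- The twisted group as a context of the reduction. -/
noncomputable def ctx (hK : Fintype.card K = q ^ 2) (hdat : datOK chevE6 dat = true) :
    TwCtx (rulesE6 K) dat where
  φ := frobE6 (prime_pow hK) hK
  σ := (ChevTw.symE6_ok.glEquiv K).toMonoidHom.comp
    (Matrix.GeneralLinearGroup.map (n := chevE6.Idx) (frobE6 (prime_pow hK) hK))
  Tw := twistedE6 K q
  lam := (exists_lam (prime_pow hK) hK).choose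
  dat := hdat
  φ_invol t := by rw [frobE6_apply, frobE6_apply, pow_pow_q hK]
  lam_tr := (exists_lam (prime_pow hK) hK).choose_spec
  σ_x r hr t := by
    have h := (twistE6 (prime_pow hK) hK).sig_x r hr t
    change _ = xGL chevE6 K (twE6.root r) ((ChevTw.symE6.sgn r : K) * frobE6 (prime_pow hK) hK t) at h
    rw [← twist_tables.1 r hr] at h
    refine Eq.trans h (congrArg _ ?_)
    rcases Int.eq_one_or_neg_one_of_mul_eq_one (ChevTw.symE6.sgn_mul_self r) with e | e <;>
      simp [e, CharTwo.neg_eq]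
  fixed g hg := (grpE6 (prime_pow hK) hK).fixed hg
  le := by
    rw [group_eq (rulesE6 K)]
    exact (grpE6 (prime_pow hK) hK).Tw_le
  mem_U g hg hfix := by
    obtain ⟨len, hR⟩ := (rulesE6 K).root
    have h0 := twE6_ok.isLongest (T := twistE6 (prime_pow hK) hK) (fun _ => rfl) rfl
    exact (Subgroup.mem_inf.1 (((grpE6 (prime_pow hK) hK).fixUbar_eq (rulesE6 K) hR
      ((orbE6 (prime_pow hK) hK).comm_word hR _) (h0.invSet_eq hR)).2 ⟨hg, hfix⟩)).2
  nW_mem k := by
    set hq := prime_pow (K := K) hK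
    set S := glSys (rulesE6 K) with hS
    obtain ⟨n46, n39, n42, n37, n56, n36, -⟩ := ChevTw.negE6
    obtain ⟨s1, s3, s2, s4, s0, s5⟩ := simple_tables
    have h1 : (1 : K) ^ q = 1 := one_pow q
    have hm : (-(1 : K)⁻¹) = 1 := by rw [inv_one, CharTwo.neg_eq]
    have one_mem' : ∀ r ∈ [46, 25, 39, 32], S.x r 1 ∈ twistedE6 K q := by
      intro r hr
      have h := ChevTw.word_mem_genSubgroup (rulesE6 K) (W := e6Words K q) (w := [(r, (1 : K))])
        (Or.inl ⟨1, h1, r, by simpa [e6p2, e6m2, e6p4, e6m4] using hr, rfl⟩)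
      rw [List.map_singleton, List.prod_singleton] at h
      exact h
    have two_mem : ∀ ab ∈ [(42, 37), (29, 34), (56, 36), (15, 35)], S.x ab.1 1 * S.x ab.2 1 ∈ twistedE6 K q := by
      intro ab hab
      have h := ChevTw.word_mem_genSubgroup (rulesE6 K) (W := e6Words K q) (w := [(ab.1, (1 : K)), (ab.2, (1 : K) ^ q)])
        (Or.inr ⟨1, ab, by
          simp only [List.mem_cons, List.not_mem_nil, or_false] at hab
          rcases hab with rfl | rfl | rfl | rfl <;> simp [e6p3, e6p5, e6m3, e6m5, e6p1, e6p6, e6m1, e6m6], rfl⟩)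
      simpa [h1, hS, glSys, twistedE6] using h
    have single : ∀ i : Fin chevE6.rank, ∀ a, chevE6.simple i.val = a → S.nI i = S.x a 1 * S.x (chevE6.neg a) 1 * S.x a 1 := by
      rintro i a rfl
      simp only [Sys.nI, Sys.nEl, hm]
    have pair : ∀ i j : Fin chevE6.rank, ∀ a b, chevE6.simple i.val = a → chevE6.simple j.val = b →
        (a, b) ∈ [(42, 37), (56, 36)] →
        S.nI i * S.nI j = (S.x a 1 * S.x b 1) * (S.x (chevE6.neg a) 1 * S.x (chevE6.neg b) 1) *
          (S.x a 1 * S.x b 1) := by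
      rintro i j a b rfl rfl hab
      have hc : ∀ r ∈ [chevE6.simple i.val, chevE6.neg (chevE6.simple i.val)],
          ∀ s ∈ [chevE6.simple j.val, chevE6.neg (chevE6.simple j.val)], ∀ t u : K,
            Commute (S.x r t) (S.x s u) := fun r hr s hs t u => by
        obtain ⟨h1, h2, h3, h4, h5⟩ := ChevTw.commCrossE6 _ hab r hr s hs
        exact ChevTw.x_commute S h4 h5 h1 h2 h3 t u
      show S.nEl _ 1 * S.nEl _ 1 = _
      rw [ChevTw.nEl_pair S (hc _ (by simp) _ (by simp) _ _) (hc _ (by simp) _ (by simp) _ _)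
        (hc _ (by simp) _ (by simp) _ _), hm]
    match k with
    | 0 =>
      show S.nW [(⟨1, by decide⟩ : Fin chevE6.rank)] ∈ _
      rw [Sys.nW_singleton, single _ 46 s1, n46]
      exact mul_mem (mul_mem (one_mem' 46 (by simp)) (one_mem' 25 (by simp))) (one_mem' 46 (by simp))
    | 1 =>
      show S.nW [(⟨3, by decide⟩ : Fin chevE6.rank)] ∈ _
      rw [Sys.nW_singleton, single _ 39 s3, n39]
      exact mul_mem (mul_mem (one_mem' 39 (by simp)) (one_mem' 32 (by simp))) (one_mem' 39 (by simp))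
    | 2 =>
      show S.nW [(⟨2, by decide⟩ : Fin chevE6.rank), (⟨4, by decide⟩ : Fin chevE6.rank)] ∈ _
      rw [Sys.nW_cons, Sys.nW_singleton, pair _ _ 42 37 s2 s4 (by simp), n42, n37]
      exact mul_mem (mul_mem (two_mem (42, 37) (by simp)) (two_mem (29, 34) (by simp))) (two_mem (42, 37) (by simp))
    | 3 =>
      show S.nW [(⟨0, by decide⟩ : Fin chevE6.rank), (⟨5, by decide⟩ : Fin chevE6.rank)] ∈ _
      rw [Sys.nW_cons, Sys.nW_singleton, pair _ _ 56 36 s0 s5 (by simp), n56, n36]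
      exact mul_mem (mul_mem (two_mem (56, 36) (by simp)) (two_mem (15, 35) (by simp))) (two_mem (56, 36) (by simp))
    | (k + 4) =>
      show S.nW [] ∈ _
      rw [Sys.nW_nil]
      exact one_mem _
  tau_mem len hR c hc := by
    refine ChevTw.tau_mem_E6 (prime_pow hK) hK hR ((ChevTw.mem_mk_iff c).2 ?_)
    have h : ∀ i j : Fin chevE6.rank, [5, 1, 4, 3, 2, 0].getD i.val 0 = j.val → c i ^ q = c j := by
      intro i j e
      refine Units.ext ?_
      rw [Units.val_pow_eq_pow_val, hc i j ((twist_tables.2.2 i).trans e), frobE6_apply]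
    exact ⟨h _ _ rfl, h _ _ rfl, h _ _ rfl, h _ _ rfl, h _ _ rfl, h _ _ rfl⟩

end Cfsg.Agent.InvolTwist.E6
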