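import Cfsg.Agent.InvolTwist.E6Check
import Cfsg.Agent.InvolTwist.E6Ctx
import Cfsg.Agent.InvolTwist.E6Rank
import Cfsg.Agent.ChevTwOrd.E6
import Cfsg.Agent.ChevTw.TwE6Thms
import Cfsg.Agent.ChevGrp.FieldAut

/-!
# 2E6(q), q even: three classes of involutions (owner: helper52)

Every involution is conjugate into a fixed unipotent group, whose involutions are reduced by the table; the three
representatives have different ranks of `y - 1`.
-/

set_option autoImplicit false

namespace Cfsg.Agent.InvolTwist.E6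

open Cfsg.Lie Cfsg.Agent.ChevGrp Cfsg.Agent.InvolFour
open Cfsg.Agent.ChevTw (rulesE6)
open scoped MatrixGroups

set_option maxRecDepth 100000 in
theorem root_tables : (∀ r < 72, (r ∈ node0.psi ↔ chevE6.IsPosRoot r)) ∧ (∀ r ∈ node0.psi, r < 72) ∧
    (∀ T ∈ tgts, commAll chevE6 T = true ∧ commAll chevE6 (T ++ T) = true ∧ nrm (T ++ T) = []) := by
  decide +kernel

theorem posSet_eq_psi : posSet chevE6 = ls node0.psi :=
  Set.ext fun r => ⟨fun h => (root_tables.1 r h.1).2 h, fun h => (root_tables.1 r (root_tables.2.1 r h)).1 h⟩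

variable {K : Type*} [Field K] [CharP K 2]

theorem node0_A : E (D := chevE6) K node0.A = 1 := rfl

/-- The invariant. -/
noncomputable def inv (y : GL chevE6.Idx K) : ℕ := ((y : Matrix chevE6.Idx chevE6.Idx K) - 1).rank

omit [CharP K 2] in
theorem inv_conj_le (h y : GL chevE6.Idx K) : inv (h * y * h⁻¹) ≤ inv y := by
  have e : ((h * y * h⁻¹ : GL chevE6.Idx K) : Matrix chevE6.Idx chevE6.Idx K) - 1 =
      (h : Matrix chevE6.Idx chevE6.Idx K) * ((y : Matrix chevE6.Idx chevE6.Idx K) - 1) *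
        ((h⁻¹ : GL chevE6.Idx K) : Matrix chevE6.Idx chevE6.Idx K) := by
    have hH : (h : Matrix chevE6.Idx chevE6.Idx K) * ((h⁻¹ : GL chevE6.Idx K) : Matrix chevE6.Idx chevE6.Idx K) =
        1 := Units.mul_inv h
    rw [mul_sub, sub_mul, mul_one, hH, Units.val_mul, Units.val_mul]
  rw [inv, e]
  exact (Matrix.rank_mul_le_left _ _).trans (Matrix.rank_mul_le_right _ _)

omit [CharP K 2] in
theorem inv_conj {h y z : GL chevE6.Idx K} (e : h * y * h⁻¹ = z) : inv y = inv z := by
  refine le_antisymm ?_ (e ▸ inv_conj_le h y)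
  have := inv_conj_le h⁻¹ z
  rwa [← e, show h⁻¹ * (h * y * h⁻¹) * h⁻¹⁻¹ = y by simp [mul_assoc], e] at this

/-- The map from the field with two elements. -/
def prime (K : Type*) [Field K] [CharP K 2] : ZMod 2 →+* K := ZMod.castHom (dvd_refl 2) K

/-- The matrix of `ab - 1` from those of `a - 1` and `b - 1`. -/
def comb2 {n : Type*} [Fintype n] {R : Type*} [Ring R] (A B : Matrix n n R) : Matrix n n R := A * B + A + B

theorem comb2_submatrix (X Y : Matrix chevE6.Idx chevE6.Idx (ZMod 2)) :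
    (comb2 X Y).submatrix coord coord = comb2 (X.submatrix coord coord) (Y.submatrix coord coord) := by
  show (X * Y).submatrix coord coord + X.submatrix coord coord + Y.submatrix coord coord = _
  rw [Matrix.submatrix_mul X Y coord coord coord coordEquiv.bijective]
  rfl

theorem map_single (r : ℕ) : (chevE6.x (ZMod 2) r 1 - 1).map (prime K) =
    (xGL chevE6 K r 1 : Matrix chevE6.Idx chevE6.Idx K) - 1 := by
  rw [Matrix.map_sub _ (map_sub _), Matrix.map_one _ (map_zero _) (map_one _), x_map, map_one,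
    val_xGL (rulesE6 K)]

theorem map_comb2 (X Y : Matrix chevE6.Idx chevE6.Idx (ZMod 2)) (a b : GL chevE6.Idx K)
    (ha : X.map (prime K) = (a : Matrix chevE6.Idx chevE6.Idx K) - 1)
    (hb : Y.map (prime K) = (b : Matrix chevE6.Idx chevE6.Idx K) - 1) :
    (comb2 X Y).map (prime K) = ((a * b : GL chevE6.Idx K) : Matrix chevE6.Idx chevE6.Idx K) - 1 := by
  rw [comb2, Matrix.map_add _ (map_add _), Matrix.map_add _ (map_add _), Matrix.map_mul, ha, hb, Units.val_mul,
    sub_mul, mul_sub, mul_sub, one_mul, mul_one, mul_one]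
  abel

theorem rank_of {M : Matrix chevE6.Idx chevE6.Idx (ZMod 2)} {A : Matrix (Fin 78) (Fin 78) (ZMod 2)}
    (hA : M.submatrix coord coord = A) {y : GL chevE6.Idx K}
    (hy : M.map (prime K) = (y : Matrix chevE6.Idx chevE6.Idx K) - 1) : inv y = (A.map (prime K)).rank := by
  rw [inv, ← hy, ← hA, ← Matrix.submatrix_map]
  exact (Matrix.rank_submatrix _ coordEquiv coordEquiv).symm

theorem inv_targets : inv (E (D := chevE6) K [39]) = 22 ∧ inv (E (D := chevE6) K [36, 56]) = 32 ∧
    inv (E (D := chevE6) K [36, 39, 56]) = 38 := by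
  have e36 : (chevE6.x (ZMod 2) 36 1 - 1).submatrix coord coord = bm x36N 78 78 := entries36
  have hp : (comb2 (chevE6.x (ZMod 2) 36 1 - 1) (chevE6.x (ZMod 2) 56 1 - 1)).submatrix coord coord =
      bm pairN 78 78 := by
    rw [comb2_submatrix, e36, entries56]
    exact pair_entries
  have ht : (comb2 (comb2 (chevE6.x (ZMod 2) 36 1 - 1) (chevE6.x (ZMod 2) 39 1 - 1))
      (chevE6.x (ZMod 2) 56 1 - 1)).submatrix coord coord = bm tripleN 78 78 := by
    rw [comb2_submatrix, comb2_submatrix, e36, entries39, entries56,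
      show comb2 (bm x36N 78 78) (bm x39N 78 78) = bm midN 78 78 from mid_entries]
    exact triple_entries
  refine ⟨?_, ?_, ?_⟩
  · rw [rank_of (K := K) entries39 (y := E K [39]) (by simp [InvolFour.E, map_single]), RankCert.rank_eq rank_one]
    rfl
  · rw [rank_of (K := K) hp (y := E K [36, 56])
      ((map_comb2 _ _ _ _ (map_single 36) (map_single 56)).trans (by simp [InvolFour.E])), RankCert.rank_eq rank_pair]
    rfl
  · rw [rank_of (K := K) ht (y := E K [36, 39, 56])
      ((map_comb2 _ _ _ _ (map_comb2 _ _ _ _ (map_single 36) (map_single 39)) (map_single 56)).trans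
        (by simp [InvolFour.E, mul_assoc])), RankCert.rank_eq rank_triple]
    rfl

variable [Fintype K] {q : ℕ}

omit [Fintype K] in
theorem target_ne {T : List ℕ} (hT : T ∈ tgts) : E (D := chevE6) K T ≠ 1 := by
  intro e
  have h0 : inv (1 : GL chevE6.Idx K) = 0 := by simp [inv]
  obtain ⟨a, b, c⟩ := inv_targets (K := K)
  simp only [tgts, List.mem_cons, List.not_mem_nil, or_false] at hT
  rcases hT with rfl | rfl | rfl
  · rw [e] at a; omega
  · rw [e] at b; omega
  · rw [e] at c; omega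

theorem two_dvd (hK : Fintype.card K = q ^ 2) : 2 ∣ q := by
  obtain ⟨n, hn⟩ := FiniteField.card K 2
  exact Nat.prime_two.dvd_of_dvd_pow (n := 2) (by rw [← hK, hn.2]; exact dvd_pow_self 2 n.ne_zero)

/-- An involution of the twisted group is conjugate there to a target. -/
theorem exists_conj_target (hK : Fintype.card K = q ^ 2) {g : GL chevE6.Idx K} (hg : g ∈ twistedE6 K q)
    (hsq : g * g = 1) (hne : g ≠ 1) : TConj (ctx hK dat_ok) tgts g := by
  classical
  haveI : Fact (Nat.Prime 2) := ⟨Nat.prime_two⟩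
  have hq := prime_pow (K := K) hK
  have hS : Rules chevE6 K := rulesE6 K
  obtain ⟨len, hR⟩ := hS.root
  set G := twistedE6 K q with hG
  let U : Subgroup ↥G := (chevE6.posUnipotent K ⊓ G).subgroupOf G
  have hUc : Nat.card ↥U = q ^ 36 := by
    rw [Nat.card_congr (Subgroup.subgroupOfEquivOfLe inf_le_right).toEquiv]
    exact ChevTw.thm_S1086 hq hK
  have hord := ChevTwOrd.order_E6 hq hK (ChevTw.thm_S1102 hq hK)
  obtain ⟨n, hn⟩ : ∃ n, q ^ 36 = 2 ^ n := by
    obtain ⟨m, hm⟩ := FiniteField.card K 2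
    exact ⟨m * 18, by rw [show (36 : ℕ) = 2 * 18 from rfl, pow_mul, ← hK, hm.2, ← pow_mul]⟩
  set N := (q ^ 2 - 1) * (q ^ 5 + 1) * (q ^ 6 - 1) * (q ^ 8 - 1) * (q ^ 9 + 1) * (q ^ 12 - 1) with hN
  have hodd : ¬ 2 ∣ N := by
    have hev : ∀ k, 0 < k → 2 ∣ q ^ k := fun k hk => (two_dvd hK).trans (dvd_pow_self q hk.ne')
    have hp : ∀ k, 1 ≤ q ^ k := fun k => Nat.one_le_pow _ _ hq.pos
    have a := hev 2 (by norm_num); have b := hev 5 (by norm_num); have c := hev 6 (by norm_num)
    have d := hev 8 (by norm_num); have e := hev 9 (by norm_num); have f := hev 12 (by norm_num)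
    have := hp 2; have := hp 6; have := hp 8; have := hp 12
    intro h
    rw [hN] at h
    simp only [Nat.prime_two.dvd_mul] at h
    omega
  have hfac : (Nat.card ↥G).factorization 2 = n := by
    have h := congrArg (fun m => m.factorization 2) hord
    rw [show q ^ 36 * (q ^ 2 - 1) * (q ^ 5 + 1) * (q ^ 6 - 1) * (q ^ 8 - 1) * (q ^ 9 + 1) * (q ^ 12 - 1) =
      2 ^ n * N by rw [← hn, hN]; ring, Nat.factorization_mul (Nat.gcd_pos_of_pos_left _ (by norm_num)).ne'
      Nat.card_pos.ne', Nat.factorization_mul (pow_ne_zero _ two_ne_zero)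
      (fun h => hodd (by rw [h]; exact dvd_zero 2))] at h
    have hg3 : (Nat.gcd 3 (q + 1)).factorization 2 = 0 :=
      Nat.factorization_eq_zero_of_not_dvd fun h => by
        have := Nat.le_of_dvd (by norm_num) ((h.trans (Nat.gcd_dvd_left 3 (q + 1))))
        have h3 : (2 : ℕ) ∣ 3 := h.trans (Nat.gcd_dvd_left 3 (q + 1))
        omega
    simpa [Nat.prime_two.factorization_self, Nat.factorization_eq_zero_of_not_dvd hodd, hg3] using h
  let P : Sylow 2 ↥G := Sylow.ofCard U (by rw [hUc, hfac, hn])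
  let g' : ↥G := ⟨g, hg⟩
  have hpg : IsPGroup 2 ↥(Subgroup.zpowers g') := by
    refine IsPGroup.of_card (n := 1) ?_
    rw [Nat.card_zpowers, pow_one]
    exact orderOf_eq_prime (Subtype.ext (by simp [g', sq, hsq])) fun e => hne (congrArg Subtype.val e)
  obtain ⟨Q, hQ⟩ := hpg.exists_le_sylow
  obtain ⟨c, hc⟩ := MulAction.exists_smul_eq ↥G Q P
  have hm : c * g' * c⁻¹ ∈ U := by
    have h1 : c * g' * c⁻¹ ∈ ((c • Q : Sylow 2 ↥G) : Subgroup ↥G) := by
      rw [Sylow.coe_subgroup_smul]
      exact ⟨g', hQ (Subgroup.mem_zpowers g'), rfl⟩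
    rwa [hc] at h1
  have hU : (c : GL chevE6.Idx K) * g * (c : GL chevE6.Idx K)⁻¹ ∈ (glSys hS).US (ls node0.psi) := by
    have := (Subgroup.mem_inf.1 (Subgroup.mem_subgroupOf.1 hm)).1
    rw [posUnipotent_eq hS, Sys.Ubar, posSet_eq_psi] at this
    exact this
  refine TConj.of_conj _ _ (g := (c : GL chevE6.Idx K)) c.2 ?_
  have h4 := tallOK_spec (ctx hK dat_ok) hR tgts table_ok node0 List.mem_cons_self _ hU
    ((ctx hK dat_ok).fixed _ (mul_mem (mul_mem c.2 hg) (inv_mem c.2)))
    (by rw [_root_.conj_mul, hsq, mul_one, mul_inv_cancel])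
    (by rw [node0_A, one_mul]; exact fun e => hne (conj_eq_one_iff.1 e))
  rwa [node0_A, one_mul] at h4

theorem target_mem (hK : Fintype.card K = q ^ 2) {T : List ℕ} (hT : T ∈ tgts) :
    E (D := chevE6) K T ∈ twistedE6 K q := by
  obtain ⟨len, hR⟩ := (rulesE6 K).root
  set C := ctx hK dat_ok with hC
  have h39 : C.unit 39 1 = xGL chevE6 K 39 1 := by
    exact if_pos (show dat.rt 39 = 39 by decide +kernel)
  have h36 : C.unit 36 1 = xGL chevE6 K 36 1 * xGL chevE6 K 56 1 := by
    have e : dat.rt 36 = 56 := by decide +kernel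
    refine (if_neg (fun h => absurd (e.symm.trans h) (by decide))).trans ?_
    rw [map_one]
    exact congrArg (fun r => xGL chevE6 K 36 1 * xGL chevE6 K r 1) e
  have m39 : xGL chevE6 K 39 1 ∈ twistedE6 K q := by
    rw [← h39]
    exact C.unit_mem hR (by decide) fun _ => map_one _
  have m36 : xGL chevE6 K 36 1 * xGL chevE6 K 56 1 ∈ twistedE6 K q := by
    rw [← h36]
    exact C.unit_mem hR (by decide) fun _ => map_one _
  simp only [tgts, List.mem_cons, List.not_mem_nil, or_false] at hT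
  rcases hT with rfl | rfl | rfl
  · simpa [InvolFour.E] using m39
  · simpa [InvolFour.E] using m36
  · have h : E (D := chevE6) K [36, 39, 56] = E K (nrm [36, 56, 39]) := rfl
    rw [h, E_nrm (rulesE6 K) hR (by decide +kernel)]
    simpa [InvolFour.E, mul_assoc] using mul_mem m36 m39

theorem target_order (hK : Fintype.card K = q ^ 2) {T : List ℕ} (hT : T ∈ tgts) :
    orderOf (⟨E K T, target_mem hK hT⟩ : ↥(twistedE6 K q)) = 2 := by
  obtain ⟨len, hR⟩ := (rulesE6 K).root
  obtain ⟨-, h2, h3⟩ := root_tables.2.2 T hT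
  refine orderOf_eq_prime (Subtype.ext ?_) fun e => target_ne hT (congrArg Subtype.val e)
  show E K T ^ 2 = 1
  rw [sq, ← E_append, ← E_nrm (rulesE6 K) hR h2, h3]
  rfl

theorem ncard_classes (hK : Fintype.card K = q ^ 2) :
    (ConjClasses.mk '' {g : ↥(twistedE6 K q) | orderOf g = 2}).ncard = 3 := by
  classical
  let el : ∀ T ∈ tgts, ↥(twistedE6 K q) := fun T hT => ⟨E K T, target_mem hK hT⟩
  set a := el [39] (by simp [tgts])
  set b := el [36, 56] (by simp [tgts])
  set c := el [36, 39, 56] (by simp [tgts])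
  have h : ConjClasses.mk '' {g : ↥(twistedE6 K q) | orderOf g = 2} =
      {ConjClasses.mk a, ConjClasses.mk b, ConjClasses.mk c} := by
    refine Set.Subset.antisymm ?_ ?_
    · rintro _ ⟨g, hg, rfl⟩
      have h1 : g * g = 1 := by rw [← sq, ← (show orderOf g = 2 from hg), pow_orderOf_eq_one]
      obtain ⟨T, hT, h, hh, e⟩ := exists_conj_target hK g.2 (congrArg Subtype.val h1)
        fun e => by simp [(Subtype.ext e : g = 1)] at hg
      have e' : ConjClasses.mk g = ConjClasses.mk (el T hT) :=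
        ConjClasses.mk_eq_mk_iff_isConj.2 (isConj_iff.2 ⟨⟨h, hh⟩, Subtype.ext e⟩)
      simp only [tgts, List.mem_cons, List.not_mem_nil, or_false] at hT
      rcases hT with rfl | rfl | rfl
      · exact Or.inl e'
      · exact Or.inr (Or.inl e')
      · exact Or.inr (Or.inr e')
    · rintro _ (rfl | rfl | rfl)
      · exact ⟨a, target_order hK (T := [39]) (by simp [tgts]), rfl⟩
      · exact ⟨b, target_order hK (T := [36, 56]) (by simp [tgts]), rfl⟩
      · exact ⟨c, target_order hK (T := [36, 39, 56]) (by simp [tgts]), rfl⟩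
  obtain ⟨ha, hb, hc⟩ := inv_targets (K := K)
  have hne : ∀ x y : ↥(twistedE6 K q), inv (x : GL chevE6.Idx K) ≠ inv (y : GL chevE6.Idx K) →
      ConjClasses.mk x ≠ ConjClasses.mk y := by
    intro x y hxy e
    obtain ⟨h, he⟩ := isConj_iff.1 (ConjClasses.mk_eq_mk_iff_isConj.1 e)
    exact hxy (inv_conj (congrArg Subtype.val he))
  rw [h, Set.ncard_eq_three]
  exact ⟨_, _, _, hne a b (by show inv (E K [39]) ≠ inv (E K [36, 56]); omega),
    hne a c (by show inv (E K [39]) ≠ inv (E K [36, 39, 56]); omega),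
    hne b c (by show inv (E K [36, 56]) ≠ inv (E K [36, 39, 56]); omega), rfl⟩

end Cfsg.Agent.InvolTwist.E6
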