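import Cfsg.Agent.InvolTwist.Ctx
import Cfsg.Agent.InvolFour.RankCert
import Mathlib.Algebra.BigOperators.Fin

/-!
# One layer of the reduction in a twisted group (owner: helper52)

The layer quotient is a vector space on which `x = ∏ x_b(1)` acts; `D = x - 1` has a contracting homotopy `H`,
so a fixed vector killed by `D` is `D` of a fixed vector, namely the trace of `λ · H f`.
-/

set_option autoImplicit false

namespace Cfsg.Agent.InvolTwist

open Cfsg.Lie Cfsg.Agent.ChevGrp Cfsg.Agent.InvolFour
open scoped MatrixGroups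

/-- A layer: its roots, the roots left afterwards, the bit rows of a homotopy. -/
structure TLay where
  outs : List ℕ
  next : List ℕ
  hom : List ℕ

/-- The roots of a layer and below. -/
def TLay.all (l : TLay) : List ℕ := l.outs ++ l.next

/-- The roots reached in the layer from `r` by conjugation with the root element of `b`. -/
def shift (D : ChevalleyDatum) (l : TLay) (b r : ℕ) : List (ℕ × ℤ × ℕ × ℕ) :=
  (oddT D b r).filter fun c => !l.next.contains c.1

/-- The conjugation by the root element of `b` on the layer. -/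
def tMat (D : ChevalleyDatum) (l : TLay) (b : ℕ) : Matrix (Fin l.outs.length) (Fin l.outs.length) (ZMod 2) :=
  Matrix.of fun i j => ((((l.outs[j.val] :: (shift D l b l.outs[j.val]).map Prod.fst).count l.outs[i.val]) : ℕ) : ZMod 2)

/-- The operator `x - 1` on the layer. -/
def dMat (D : ChevalleyDatum) (l : TLay) (B : List ℕ) : Matrix (Fin l.outs.length) (Fin l.outs.length) (ZMod 2) :=
  (B.map (tMat D l)).prod + 1

/-- The position of the image under the twist. -/
def pidx {n : ℕ} (d : TwDat n) (l : TLay) (i : Fin l.outs.length) : Fin l.outs.length :=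
  if h : l.outs.idxOf (d.rt l.outs[i.val]) < l.outs.length then ⟨l.outs.idxOf (d.rt l.outs[i.val]), h⟩ else i

/-- The table conditions on a layer below `R` for the orbit `B`. -/
def tlayOK (D : ChevalleyDatum) (d : TwDat D.rank) (B R : List ℕ) (l : TLay) : Bool :=
  decide l.all.Nodup && (R.all fun r => l.all.contains r) && (l.all.all fun r => R.contains r) &&
  intoB D l.all l.next && stableB d l.outs && stableB d l.next &&
  (B.all fun b => l.all.all fun r => r != b && r != D.neg b && (oddT D b r).all fun c =>
    l.next.contains c.1 || (l.outs.contains c.1 && l.outs.contains r && c.2.2.2 == 1)) &&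
  ((List.finRange l.outs.length).all fun i => (List.finRange l.outs.length).all fun j =>
    dMat D l B (pidx d l i) (pidx d l j) == dMat D l B i j) &&
  decide (dMat D l B * bm l.hom l.outs.length l.outs.length +
    bm l.hom l.outs.length l.outs.length * dMat D l B = 1)

theorem prod_self_vec {Q : Type*} [CommGroup Q] {α : Type*} (L : List α) (f : α → Q) (h : ∀ a ∈ L, f a * f a = 1) :
    (L.map f).prod * (L.map f).prod = 1 := by
  rw [← List.prod_map_mul]
  exact List.prod_eq_one fun z hz => by
    obtain ⟨a, ha, rfl⟩ := List.mem_map.1 hz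
    exact h a ha

variable {D : ChevalleyDatum} {F : Type*} [Field F] [CharP F 2] {len : ℕ → ℕ}
  {hS : Rules D F} {d : TwDat D.rank} (C : TwCtx hS d) (hR : RootTable D len)

set_option maxHeartbeats 4000000 in
include C hR in
theorem tlayer_step {B : List ℕ} (hB : ∀ b ∈ B, b < D.nroots) (hBc : ∀ a ∈ B, ∀ b ∈ B, comB D a b = true)
    {R : List ℕ} (hpos : ∀ r ∈ R, D.IsPosRoot r) {l : TLay} (hok : tlayOK D d B R l = true)
    {m : GL D.Idx F} (hm : m ∈ (glSys hS).US (ls R)) (hfix : C.σ m = m) (hxfix : C.σ (E F B) = E F B)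
    (hsq : E F B * m * (E F B * m) = 1) :
    ∃ g ∈ (glSys hS).US (ls R), g ∈ C.Tw ∧ ∃ n ∈ (glSys hS).US (ls l.next),
      C.σ n = n ∧ g * (E F B * m) * g⁻¹ = E F B * n := by
  classical
  simp only [tlayOK, Bool.and_eq_true, decide_eq_true_eq, List.all_eq_true, List.contains_iff_mem,
    bne_iff_ne, beq_iff_eq, Bool.or_eq_true, stableB] at hok
  obtain ⟨⟨⟨⟨⟨⟨⟨⟨hnd, hRa⟩, haR⟩, hinto⟩, hso⟩, hsn⟩, hBall⟩, hperm⟩, hhom⟩ := hok
  have hset : ls R = ls l.all := Set.ext fun r => ⟨hRa r, haR r⟩
  rw [hset] at hm ⊢
  set S := glSys hS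
  have hnA : ls l.next ⊆ ls l.all := fun r h => List.mem_append_right _ h
  have hoA : ∀ r ∈ l.outs, r ∈ l.all := fun r h => List.mem_append_left _ h
  have hposA : ∀ r ∈ l.all, D.IsPosRoot r := fun r hr => hpos r (haR r hr)
  have hlt : ∀ r ∈ l.all, r < D.nroots := fun r hr => (hposA r hr).1
  have hnd1 : l.outs.Nodup := (List.nodup_append.1 hnd).1
  have hAc : UClosed D len (htHom D) (ls l.all) :=
    hR.posSet_closed.subset_closed (fun r hr => hposA r hr)
      fun r hr s hs h c hc => hnA (intoB_spec hinto r hr s hs h c hc)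
  have hNc : UClosed D len (htHom D) (ls l.next) :=
    hR.posSet_closed.subset_closed (fun r hr => hposA r (hnA hr))
      fun r hr s hs h c hc => intoB_spec hinto r (hnA hr) s (hnA hs) h c hc
  set H := S.US (ls l.all) with hH
  set N0 := S.US (ls l.next) with hN0
  have hnorm : H ≤ Subgroup.normalizer (N0 : Set (GL D.Idx F)) :=
    S.mem_normalizer_of_ideal hR hAc hnA fun r hr s hs h c hc => intoB_spec hinto r hr s (hnA hs) h c hc
  let Nn : Subgroup ↥H := N0.subgroupOf H
  have hNn : Nn.Normal := ⟨fun n hn h => by
    simp only [Nn, Subgroup.mem_subgroupOf] at hn ⊢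
    exact (Subgroup.mem_normalizer_iff.1 (hnorm h.2) _).1 hn⟩
  let π : ↥H →* ↥H ⧸ Nn := QuotientGroup.mk' Nn
  have hπ1 : ∀ g : ↥H, π g = 1 ↔ (g : GL D.Idx F) ∈ N0 := fun g => QuotientGroup.eq_one_iff g
  let xH : ℕ → F → ↥H := fun r t => if h : r ∈ l.all then ⟨xGL D F r t, S.x_mem_US h t⟩ else 1
  have hxH : ∀ r ∈ l.all, ∀ t, (xH r t : GL D.Idx F) = xGL D F r t := fun r hr t => by simp [xH, hr]
  let q : ℕ → F → ↥H ⧸ Nn := fun r t => π (xH r t)
  have hgen : ∀ g : ↥H, g ∈ Subgroup.closure {y : ↥H | ∃ r ∈ l.all, ∃ t, y = xH r t} := by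
    intro g
    have key : ∀ y (hy : y ∈ H), (⟨y, hy⟩ : ↥H) ∈ Subgroup.closure {y : ↥H | ∃ r ∈ l.all, ∃ t, y = xH r t} := by
      intro y hy
      refine Subgroup.closure_induction ?_ ?_ ?_ ?_ hy
      · rintro _ ⟨r, hr, t, rfl⟩
        exact Subgroup.subset_closure ⟨r, hr, t, Subtype.ext (hxH r hr t).symm⟩
      · exact one_mem _
      · intro a b _ _ ha hb
        exact mul_mem ha hb
      · intro a _ ha
        exact inv_mem ha
    exact key g.1 g.2
  have hqc : ∀ r ∈ l.all, ∀ s ∈ l.all, ∀ t u, q r t * q s u = q s u * q r t := by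
    intro r hr s hs t u
    by_cases e : r = s
    · subst e
      rw [← map_mul, ← map_mul]
      congr 1
      refine Subtype.ext ?_
      simp only [Subgroup.coe_mul, hxH r hr]
      exact (commute_x hS hR (hlt r hr) (hlt r hr) (by simp [comB]) t u).eq
    · rw [← map_mul, ← map_mul, ← mul_inv_eq_one, ← map_inv, ← map_mul, hπ1]
      simp only [Subgroup.coe_mul, Subgroup.coe_inv, hxH r hr, hxH s hs]
      have e1 : xGL D F r t * xGL D F s u = xGL D F s u * xGL D F r t *
          ((D.commWord F s r u t).map fun p => xGL D F p.1 p.2).prod :=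
        S.comm s (hlt s hs) r (hlt r hr) e (hAc.ne_neg hR hs hr) u t
      have hw : ((D.commWord F s r u t).map fun p => xGL D F p.1 p.2).prod ∈ N0 := S.word_mem fun p hp => by
        simp only [ChevalleyDatum.commWord, List.mem_map] at hp
        obtain ⟨c, hc, rfl⟩ := hp
        exact intoB_spec hinto s hs r hr e c hc
      rw [e1]
      exact (Subgroup.mem_normalizer_iff.1 (hnorm (mul_mem (S.x_mem_US hs u) (S.x_mem_US hr t))) _).1 hw
  have hcomm : ∀ a b : ↥H ⧸ Nn, a * b = b * a := by
    intro a b
    induction a using QuotientGroup.induction_on with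
    | H a =>
      induction b using QuotientGroup.induction_on with
      | H b =>
        show π a * π b = π b * π a
        refine Subgroup.closure_induction (p := fun a _ => π a * π b = π b * π a) ?_ (by simp) ?_ ?_ (hgen a)
        · rintro _ ⟨r, hr, t, rfl⟩
          refine Subgroup.closure_induction (p := fun b _ => π (xH r t) * π b = π b * π (xH r t)) ?_ (by simp) ?_ ?_ (hgen b)
          · rintro _ ⟨s, hs, u, rfl⟩
            exact hqc r hr s hs t u
          · intro x y _ _ hx hy
            rw [map_mul]
            exact Commute.mul_right hx hy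
          · intro x _ hx
            rw [map_inv]
            exact Commute.inv_right hx
        · intro x y _ _ hx hy
          rw [map_mul]
          exact Commute.mul_left hx hy
        · intro x _ hx
          rw [map_inv]
          exact Commute.inv_left hx
  letI : CommGroup (↥H ⧸ Nn) := { (inferInstance : Group (↥H ⧸ Nn)) with mul_comm := hcomm }
  have hqadd : ∀ r ∈ l.all, ∀ t u, q r t * q r u = q r (t + u) := fun r hr t u => by
    rw [← map_mul]
    congr 1
    refine Subtype.ext ?_
    simp only [Subgroup.coe_mul, hxH r hr]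
    exact S.x_add r (hlt r hr) t u
  have hq0 : ∀ r ∈ l.all, q r 0 = 1 := fun r hr => (hπ1 _).2 (by
    rw [hxH r hr, show xGL D F r 0 = 1 from S.x_zero (hlt r hr)]; exact one_mem _)
  have hqn : ∀ r ∈ l.next, ∀ t, q r t = 1 := fun r hr t => (hπ1 _).2 (by
    rw [hxH r (hnA hr)]; exact S.x_mem_US hr _)
  -- coordinates on the quotient
  set n := l.outs.length with hn
  let o : Fin n → ℕ := fun i => l.outs[i.val]
  have ho : ∀ i, o i ∈ l.outs := fun i => List.getElem_mem _
  have hoA' : ∀ i, o i ∈ l.all := fun i => hoA _ (ho i)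
  let vec : (Fin n → F) → ↥H ⧸ Nn := fun f => ((List.finRange n).map fun i => q (o i) (f i)).prod
  have vec_add : ∀ f g : Fin n → F, vec (f + g) = vec f * vec g := fun f g => by
    simp only [vec, ← List.prod_map_mul]
    exact congrArg List.prod (List.map_congr_left fun i _ => (hqadd _ (hoA' i) _ _).symm)
  have vec_zero : vec 0 = 1 := List.prod_eq_one fun z hz => by
    obtain ⟨i, -, rfl⟩ := List.mem_map.1 hz
    exact hq0 _ (hoA' i)
  have vec_self : ∀ f, vec f * vec f = 1 := fun f => by
    rw [← vec_add]
    convert vec_zero using 2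
    funext i
    exact CharTwo.add_self_eq_zero (f i)
  let lift : (Fin n → F) → ↥H := fun f => ((List.finRange n).map fun i => xH (o i) (f i)).prod
  have hlift : ∀ f, π (lift f) = vec f := fun f => by
    simp only [lift, vec, map_list_prod, List.map_map]
    rfl
  let ext : (Fin n → F) → ℕ → F := fun f r => if h : l.outs.idxOf r < n then f ⟨l.outs.idxOf r, h⟩ else 0
  have hext : ∀ f i, ext f (o i) = f i := fun f i => by
    have e : l.outs.idxOf (o i) = i.val := hnd1.idxOf_getElem i.val i.2
    simp only [ext, e, i.2, dif_pos, Fin.eta]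
  have hext0 : ∀ f, ∀ r ∈ l.next, ext f r = 0 := fun f r hr => dif_neg fun h =>
    List.disjoint_of_nodup_append hnd (List.idxOf_lt_length_iff.1 h) hr
  have houts : l.outs = (List.finRange n).map o := by
    refine List.ext_getElem (by simp [hn]) fun i h1 h2 => ?_
    simp [o]
  have hliftP : ∀ f, S.P l.all (ext f) = (lift f : GL D.Idx F) := fun f => by
    rw [TLay.all, S.P_append, S.P_zero (L := l.next) (fun r hr => hlt r (hnA hr)) (hext0 f), mul_one]
    simp only [lift, Subgroup.val_list_prod, List.map_map, Sys.P]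
    conv_lhs => rw [houts, List.map_map]
    refine congrArg List.prod (List.map_congr_left fun i _ => ?_)
    simp only [Function.comp_apply, hext, hxH _ (hoA' i)]
    rfl
  have vec_inj : ∀ f, vec f = 1 → f = 0 := by
    intro f hf
    have h1 : S.P l.all (ext f) ∈ N0 := by rw [hliftP, ← hπ1, hlift, hf]
    funext i
    by_contra h
    have := S.coef_supp hR hAc (enum_ls hnd) hNc hnA h1 (o i) (hoA' i) (by rw [hext]; exact h)
    exact List.disjoint_of_nodup_append hnd (ho i) this
  have vec_inj' : ∀ f g, vec f = vec g → f = g := fun f g e => by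
    have h1 : vec (f + g) = 1 := by rw [vec_add, e, vec_self]
    have h2 := vec_inj _ h1
    funext i
    exact CharTwo.add_eq_zero.1 (congrFun h2 i)
  have vec_surj : ∀ y : ↥H, ∃ f, π y = vec f := fun y => by
    refine Subgroup.closure_induction (p := fun y _ => ∃ f, π y = vec f) ?_ ⟨0, by rw [map_one, vec_zero]⟩ ?_ ?_ (hgen y)
    · rintro _ ⟨r, hr, t, rfl⟩
      rcases List.mem_append.1 hr with h | h
      · obtain ⟨i, hi, e⟩ := List.getElem_of_mem h
        refine ⟨Pi.single ⟨i, hi⟩ t, ?_⟩
        simp only [vec]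
        rw [List.prod_map_eq_pow_single ⟨i, hi⟩ _ fun j hj _ => by
          rw [Pi.single_eq_of_ne hj, hq0 _ (hoA' j)], List.count_eq_one_of_mem (List.nodup_finRange n) (List.mem_finRange _),
          pow_one, Pi.single_eq_same]
        simp only [o, e, q]
      · exact ⟨0, by rw [vec_zero]; exact hqn r h t⟩
    · rintro x y _ _ ⟨f, hf⟩ ⟨g, hg⟩
      exact ⟨f + g, by rw [map_mul, hf, hg, vec_add]⟩
    · rintro x _ ⟨f, hf⟩
      exact ⟨f, by rw [map_inv, hf, inv_eq_of_mul_eq_one_right (vec_self f)]⟩
  -- a linear map from its values on the generators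
  have vec_linear : ∀ (M : Matrix (Fin n) (Fin n) F) (ψ : ↥H →* ↥H ⧸ Nn),
      (∀ j t, ψ (xH (o j) t) = vec (fun i => M i j * t)) → ∀ f, ψ (lift f) = vec (M.mulVec f) := by
    intro M ψ hψ f
    have : ∀ L : List (Fin n), ψ ((L.map fun j => xH (o j) (f j)).prod) =
        vec (fun i => (L.map fun j => M i j * f j).sum) := by
      intro L
      induction L with
      | nil =>
        simp only [List.map_nil, List.prod_nil, List.sum_nil, map_one]
        exact vec_zero.symm
      | cons j L ih =>
        rw [List.map_cons, List.prod_cons, map_mul, hψ, ih, ← vec_add]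
        simp [Pi.add_def]
    rw [show lift f = ((List.finRange n).map fun j => xH (o j) (f j)).prod from rfl, this]
    congr 1
  -- conjugation by the root elements of `B`
  have hodd : ∀ b ∈ B, ∀ r ∈ l.all, ∀ c ∈ oddT D b r, c.1 ∈ l.all := fun b hb r hr c hc => by
    rcases (hBall b hb r hr).2 c hc with h | ⟨⟨h, -⟩, -⟩
    · exact hnA h
    · exact hoA _ h
  have hbH : ∀ b ∈ B, ∀ y ∈ H, xGL D F b 1 * y * xGL D F b 1 ∈ H := by
    intro b hb y hy
    have hle : H ≤ H.comap (MulAut.conj (xGL D F b 1)).toMonoidHom := by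
      show Subgroup.closure _ ≤ _
      rw [Subgroup.closure_le]
      rintro _ ⟨r, hr, t, rfl⟩
      show xGL D F b 1 * xGL D F r t * (xGL D F b 1)⁻¹ ∈ H
      obtain ⟨⟨hne1, hne2⟩, -⟩ := hBall b hb r hr
      rw [InvolFour.x_inv hS (hB b hb), x_conj hS hR (hB b hb) (hlt r hr) hne1 hne2]
      refine mul_mem (S.x_mem_US hr t) (list_prod_mem fun z hz => ?_)
      obtain ⟨c, hc, rfl⟩ := List.mem_map.1 hz
      exact S.x_mem_US (hodd b hb r hr c hc) _
    have := hle hy
    rw [Subgroup.mem_comap] at this
    simpa [InvolFour.x_inv hS (hB b hb)] using this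
  let f2 : ZMod 2 →+* F := ZMod.castHom (dvd_refl 2) F
  have hcast : ∀ k : ℕ, f2 (k : ZMod 2) = (k : F) := fun k => map_natCast f2 k
  have hone : ∀ b, ∀ hb : b ∈ B, ∀ y : ↥H, ∀ f, π y = vec f →
      π ⟨_, hbH b hb y y.2⟩ = vec (((tMat D l b).map f2).mulVec f) := by
    intro b hb y f hf
    have hxb := InvolFour.x_self hS (hB b hb) (1 : F)
    let cb : ↥H →* ↥H := MonoidHom.mk' (fun y => ⟨_, hbH b hb y y.2⟩) fun x y => by
      refine Subtype.ext ?_
      show xGL D F b 1 * (x * y : GL D.Idx F) * xGL D F b 1 =
        (xGL D F b 1 * x * xGL D F b 1) * (xGL D F b 1 * y * xGL D F b 1)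
      simp [mul_assoc, ← mul_assoc (xGL D F b 1) (xGL D F b 1), hxb]
    have hval : ∀ r ∈ l.all, ∀ t, π (cb (xH r t)) =
        ((r :: (shift D l b r).map Prod.fst).map fun k => q k t).prod := by
      intro r hr t
      obtain ⟨⟨hne1, hne2⟩, hterms⟩ := hBall b hb r hr
      have key : ∀ (L : List (ℕ × ℤ × ℕ × ℕ)), (∀ c ∈ L, c ∈ oddT D b r) →
          π ((L.map fun c => xH c.1 (1 ^ c.2.2.1 * t ^ c.2.2.2)).prod) =
            ((((L.filter fun c => !l.next.contains c.1)).map Prod.fst).map fun k => q k t).prod := by
        intro L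
        induction L with
        | nil => intro _; simp
        | cons c L ih =>
          intro hL
          rw [List.map_cons, List.prod_cons, map_mul, ih fun e he => hL e (List.mem_cons_of_mem _ he)]
          rcases hterms c (hL c List.mem_cons_self) with h | ⟨⟨h, -⟩, h1⟩
          · rw [List.filter_cons_of_neg (by simpa using h)]
            rw [show π (xH c.1 _) = 1 from hqn c.1 h _, one_mul]
          · have hcn : c.1 ∉ l.next := fun h' => List.disjoint_of_nodup_append hnd h h'
            rw [List.filter_cons_of_pos (by simpa using hcn), List.map_cons, List.map_cons, List.prod_cons, h1,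
              one_pow, one_mul, pow_one]
      have e : cb (xH r t) = xH r t * ((oddT D b r).map fun c => xH c.1 (1 ^ c.2.2.1 * t ^ c.2.2.2)).prod := by
        refine Subtype.ext ?_
        show xGL D F b 1 * (xH r t : GL D.Idx F) * xGL D F b 1 = _
        rw [Subgroup.coe_mul, hxH r hr, x_conj hS hR (hB b hb) (hlt r hr) hne1 hne2, Subgroup.val_list_prod,
          List.map_map, oddW]
        congr 1
        exact congrArg List.prod (List.map_congr_left fun c hc => (hxH c.1 (hodd b hb r hr c hc) _).symm)
      rw [e, map_mul, key _ fun c hc => hc, List.map_cons, List.prod_cons]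
      rfl
    have hgen' : ∀ j t, π (cb (xH (o j) t)) = vec (fun i => ((tMat D l b).map f2) i j * t) := by
      intro j t
      rw [hval _ (hoA' j)]
      have hmem : ∀ k ∈ o j :: (shift D l b (o j)).map Prod.fst, k ∈ l.outs := by
        intro k hk
        rcases List.mem_cons.1 hk with rfl | hk
        · exact ho j
        · obtain ⟨c, hc, rfl⟩ := List.mem_map.1 hk
          obtain ⟨hc1, hc2⟩ := List.mem_filter.1 hc
          rcases (hBall b hb _ (hoA' j)).2 c hc1 with h | ⟨⟨h, -⟩, -⟩
          · simp [h] at hc2
          · exact h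
      have gen : ∀ L : List ℕ, (∀ k ∈ L, k ∈ l.outs) →
          (L.map fun k => q k t).prod = vec (fun i => (L.count (o i) : F) * t) := by
        intro L
        induction L with
        | nil =>
          intro _
          simp only [List.map_nil, List.prod_nil]
          rw [← vec_zero]
          congr 1
          funext i
          simp
        | cons k L ih =>
          intro hL
          obtain ⟨i0, hi0, e⟩ := List.getElem_of_mem (hL k List.mem_cons_self)
          rw [List.map_cons, List.prod_cons, ih fun k' h => hL k' (List.mem_cons_of_mem _ h)]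
          have e1 : q k t = vec (Pi.single ⟨i0, hi0⟩ t) := by
            simp only [vec]
            rw [List.prod_map_eq_pow_single ⟨i0, hi0⟩ _ fun j hj _ => by
              rw [Pi.single_eq_of_ne hj, hq0 _ (hoA' j)], List.count_eq_one_of_mem (List.nodup_finRange n) (List.mem_finRange _),
              pow_one, Pi.single_eq_same]
            simp only [o, e]
          rw [e1, ← vec_add]
          congr 1
          funext i
          simp only [Pi.add_apply, Pi.single_apply, List.count_cons, beq_iff_eq]
          have hiff : k = o i ↔ i = ⟨i0, hi0⟩ := by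
            constructor
            · intro h
              exact Fin.ext ((hnd1.getElem_inj_iff).1 (e.trans h)).symm
            · rintro rfl
              exact e.symm
          by_cases hi : i = ⟨i0, hi0⟩
          · rw [if_pos hi, if_pos (hiff.2 hi)]
            push_cast
            ring
          · rw [if_neg hi, if_neg (fun h => hi (hiff.1 h))]
            simp
      rw [gen _ hmem]
      congr 1
      funext i
      simp only [Matrix.map_apply, tMat, Matrix.of_apply]
      rw [hcast]
    have h1 : π (cb (lift f)) = vec (((tMat D l b).map f2).mulVec f) := vec_linear _ (π.comp cb) hgen' f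
    show π (cb y) = _
    rw [← h1, ← mul_inv_eq_one, ← map_inv, ← map_mul, ← map_inv, ← map_mul, hπ1]
    have hy : ((y * (lift f)⁻¹ : ↥H) : GL D.Idx F) ∈ N0 := by
      rw [← hπ1, map_mul, map_inv, hf, hlift, mul_inv_cancel]
    have hbN : ∀ z ∈ N0, xGL D F b 1 * z * (xGL D F b 1)⁻¹ ∈ N0 := by
      intro z hz
      have hle : N0 ≤ N0.comap (MulAut.conj (xGL D F b 1)).toMonoidHom := by
        show Subgroup.closure _ ≤ _
        rw [Subgroup.closure_le]
        rintro _ ⟨r, hr, t, rfl⟩
        show xGL D F b 1 * xGL D F r t * (xGL D F b 1)⁻¹ ∈ N0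
        obtain ⟨⟨hne1, hne2⟩, hterms⟩ := hBall b hb r (hnA hr)
        rw [InvolFour.x_inv hS (hB b hb), x_conj hS hR (hB b hb) (hlt r (hnA hr)) hne1 hne2]
        refine mul_mem (S.x_mem_US hr t) (list_prod_mem fun z hz => ?_)
        obtain ⟨c, hc, rfl⟩ := List.mem_map.1 hz
        rcases hterms c hc with h | ⟨⟨-, h⟩, -⟩
        · exact S.x_mem_US h _
        · exact (List.disjoint_of_nodup_append hnd h hr).elim
      exact hle hz
    have := hbN _ hy
    rw [InvolFour.x_inv hS (hB b hb)] at this
    exact this
  have hxH' : ∀ y ∈ H, E F B * y * (E F B)⁻¹ ∈ H ∧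
      ∀ (hy : y ∈ H) (h' : E F B * y * (E F B)⁻¹ ∈ H) (f : Fin n → F), π ⟨y, hy⟩ = vec f →
        π ⟨_, h'⟩ = vec ((((B.map (tMat D l)).prod).map f2).mulVec f) := by
    have gen : ∀ L : List ℕ, (∀ b ∈ L, b ∈ B) → ∀ y ∈ H, E F L * y * (E F L)⁻¹ ∈ H ∧
        ∀ (hy : y ∈ H) (h' : E F L * y * (E F L)⁻¹ ∈ H) (f : Fin n → F), π ⟨y, hy⟩ = vec f →
          π ⟨_, h'⟩ = vec ((((L.map (tMat D l)).prod).map f2).mulVec f) := by
      intro L
      induction L with
      | nil =>
        intro _ y hy
        refine ⟨by simpa [InvolFour.E] using hy, fun hy' h' f hf => ?_⟩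
        simp only [List.map_nil, List.prod_nil, Matrix.map_one _ (map_zero f2) (map_one f2), Matrix.one_mulVec]
        convert hf using 2
        exact Subtype.ext (by simp [InvolFour.E])
      | cons b L ih =>
        intro hL y hy
        obtain ⟨h1, h2⟩ := ih (fun b' hb' => hL b' (List.mem_cons_of_mem _ hb')) y hy
        have hb := hL b List.mem_cons_self
        have e : E F (b :: L) * y * (E F (b :: L))⁻¹ = xGL D F b 1 * (E F L * y * (E F L)⁻¹) * xGL D F b 1 := by
          rw [E_cons, mul_inv_rev, InvolFour.x_inv hS (hB b hb)]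
          simp [mul_assoc]
        refine ⟨by rw [e]; exact hbH b hb _ h1, fun hy' h' f hf => ?_⟩
        have h3 := hone b hb ⟨_, h1⟩ _ (h2 hy' h1 f hf)
        rw [show (⟨_, h'⟩ : ↥H) = ⟨_, hbH b hb _ h1⟩ from Subtype.ext e, h3, List.map_cons, List.prod_cons,
          Matrix.map_mul, Matrix.mulVec_mulVec]
    exact gen B fun b hb => hb
  set x := E (D := D) F B with hx
  set TB := ((B.map (tMat D l)).prod).map f2
  set DM := (dMat D l B).map f2 with hDM
  set HM := (bm l.hom n n).map f2
  have hDT : ∀ f, DM.mulVec f = TB.mulVec f + f := fun f => by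
    simp only [DM, dMat, Matrix.map_add _ (map_add f2), Matrix.map_one _ (map_zero f2) (map_one f2),
      Matrix.add_mulVec, Matrix.one_mulVec]
    rfl
  have hxx : x * x = 1 := by
    rw [hx, ← E_append]
    have gen : ∀ L : List ℕ, (∀ b ∈ L, b ∈ B) → E (D := D) F L * E F L = 1 := by
      intro L
      induction L with
      | nil => intro _; simp [InvolFour.E]
      | cons b L ih =>
        intro hL
        have hb := hL b List.mem_cons_self
        have hc : Commute (xGL D F b 1) (E F L) := Commute.list_prod_right _ _ fun z hz => by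
          obtain ⟨a, ha, rfl⟩ := List.mem_map.1 hz
          exact commute_x hS hR (hB b hb) (hB a (hL a (List.mem_cons_of_mem _ ha)))
            (hBc b hb a (hL a (List.mem_cons_of_mem _ ha))) 1 1
        rw [E_cons, hc.symm.mul_mul_mul_comm, InvolFour.x_self hS (hB b hb),
          ih fun b' hb' => hL b' (List.mem_cons_of_mem _ hb'), one_mul]
    rw [E_append]
    exact gen B fun b hb => hb
  have hxinv : x⁻¹ = x := inv_eq_of_mul_eq_one_right hxx
  -- the twist on the quotient
  have hstA : ∀ r ∈ ls l.all, d.rt r ∈ ls l.all := fun r hr => by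
    rcases List.mem_append.1 hr with h | h
    · exact hoA _ (hso r h)
    · exact hnA (hsn r h)
  have hp : ∀ i, o (pidx d l i) = d.rt (o i) := fun i => by
    have h := List.idxOf_lt_length_iff.2 (hso _ (ho i))
    simp only [pidx, o, dif_pos h]
    exact List.getElem_idxOf h
  have hpp : ∀ i, pidx d l (pidx d l i) = i := fun i => by
    have e : o (pidx d l (pidx d l i)) = o i := by rw [hp, hp, (C.rt_spec (hlt _ (hoA' i))).2.1]
    exact Fin.ext ((hnd1.getElem_inj_iff).1 e)
  let sv : (Fin n → F) → Fin n → F := fun f i => C.φ (f (pidx d l i))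
  have hσv : ∀ (y : ↥H) (f : Fin n → F), π y = vec f →
      π ⟨C.σ y, C.σ_US hlt hstA y.2⟩ = vec (sv f) := by
    intro y f hf
    let cs : ↥H →* ↥H := MonoidHom.mk' (fun y => ⟨C.σ y, C.σ_US hlt hstA y.2⟩) fun a b => Subtype.ext (map_mul C.σ _ _)
    have hl : cs (lift f) = ((List.finRange n).map fun i => xH (o (pidx d l i)) (C.φ (f i))).prod := by
      simp only [lift, map_list_prod, List.map_map]
      refine congrArg List.prod (List.map_congr_left fun i _ => Subtype.ext ?_)
      show C.σ (xH (o i) (f i) : GL D.Idx F) = _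
      rw [hxH _ (hoA' i), hxH _ (hoA' _), C.σ_x _ (hlt _ (hoA' i)), hp]
    have h1 : π (cs (lift f)) = vec (sv f) := by
      rw [hl, map_list_prod, List.map_map]
      simp only [vec, sv]
      refine List.Perm.prod_eq ?_
      have hperm' : ((List.finRange n).map (pidx d l)).Perm (List.finRange n) := by
        refine (List.perm_ext_iff_of_nodup ((List.nodup_map_iff (Function.Involutive.injective hpp)).2
          (List.nodup_finRange n)) (List.nodup_finRange n)).2 fun i => ?_
        simp only [List.mem_finRange, iff_true]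
        exact List.mem_map.2 ⟨pidx d l i, List.mem_finRange _, hpp i⟩
      have e : ((List.finRange n).map (pidx d l)).map (fun i => q (o i) (C.φ (f (pidx d l i)))) =
          (List.finRange n).map (π ∘ fun i => xH (o (pidx d l i)) (C.φ (f i))) := by
        rw [List.map_map]
        refine List.map_congr_left fun i _ => ?_
        simp only [Function.comp_apply, hpp]
        rfl
      rw [← e]
      exact hperm'.map _
    show π (cs y) = _
    rw [← h1, ← mul_inv_eq_one, ← map_inv, ← map_mul, ← map_inv, ← map_mul, hπ1]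
    have hy : ((y * (lift f)⁻¹ : ↥H) : GL D.Idx F) ∈ N0 := by
      rw [← hπ1, map_mul, map_inv, hf, hlift, mul_inv_cancel]
    have h2 := C.σ_US (T := ls l.next) (fun r hr => hlt r (hnA hr)) hsn hy
    exact h2
  -- the equation and its fixed solution
  obtain ⟨fm, hfm⟩ := vec_surj ⟨m, hm⟩
  have hfσ : sv fm = fm := by
    refine vec_inj' _ _ ?_
    rw [← hσv ⟨m, hm⟩ fm hfm, ← hfm]
    exact congrArg π (Subtype.ext hfix)
  obtain ⟨hxm, hxmv⟩ := hxH' m hm
  have hDf : DM.mulVec fm = 0 := by
    rw [hDT]
    refine vec_inj _ ?_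
    rw [vec_add, ← hxmv hm hxm fm hfm, ← hfm, ← map_mul, hπ1]
    show x * m * x⁻¹ * m ∈ N0
    rw [hxinv, mul_assoc (x * m) x m, hsq]
    exact one_mem _
  set g0 := HM.mulVec fm
  have hDg0 : DM.mulVec g0 = fm := by
    have e := congrArg (fun M => M.map f2) hhom
    simp only [Matrix.map_add _ (map_add f2), Matrix.map_mul, Matrix.map_one _ (map_zero f2) (map_one f2)] at e
    have e2 := congrArg (fun M : Matrix (Fin n) (Fin n) F => M.mulVec fm) e
    simp only [Matrix.add_mulVec, ← Matrix.mulVec_mulVec, Matrix.one_mulVec] at e2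
    change DM.mulVec (HM.mulVec fm) + HM.mulVec (DM.mulVec fm) = fm at e2
    rwa [hDf, Matrix.mulVec_zero, add_zero] at e2
  set g1 : Fin n → F := C.lam • g0 + sv (C.lam • g0) with hg1
  have hDg1 : DM.mulVec g1 = fm := by
    have hDs : ∀ f, DM.mulVec (sv f) = sv (DM.mulVec f) := by
      intro f
      funext i
      simp only [sv, Matrix.mulVec, dotProduct, map_sum, map_mul]
      refine Fintype.sum_equiv (Function.Involutive.toPerm (pidx d l) (show Function.Involutive (pidx d l) from hpp)) _ _ fun j => ?_
      simp only [Function.Involutive.coe_toPerm]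
      congr 1
      simp only [DM, Matrix.map_apply]
      rw [hperm i (List.mem_finRange _) j (List.mem_finRange _)]
      have key : ∀ z : ZMod 2, C.φ (f2 z) = f2 z := fun z => by
        have h : ∀ z : ZMod 2, z = 0 ∨ z = 1 := by decide
        rcases h z with rfl | rfl <;> simp
      rw [key]
    rw [hg1, Matrix.mulVec_add, hDs, Matrix.mulVec_smul, hDg0]
    funext i
    simp only [Pi.add_apply, Pi.smul_apply, smul_eq_mul, sv, map_mul]
    have := congrFun hfσ i
    simp only [sv] at this
    rw [this, ← add_mul, C.lam_tr, one_mul]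
  have hg1σ : ∀ i, C.φ (g1 (pidx d l i)) = g1 i := fun i => by
    simp only [hg1, Pi.add_apply, sv, map_add, C.φ_invol, hpp]
    rw [add_comm]
  -- a fixed representative
  let reps : List (Fin n) := (List.finRange n).filter fun i => decide (i ≤ pidx d l i)
  let g : GL D.Idx F := (reps.map fun i => C.unit (o i) (g1 i)).prod
  have hunitH : ∀ i, C.unit (o i) (g1 i) ∈ H := fun i => by
    by_cases e : d.rt (o i) = o i
    · simp only [TwCtx.unit, if_pos e]
      exact S.x_mem_US (hoA' i) _
    · simp only [TwCtx.unit, if_neg e]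
      exact mul_mem (S.x_mem_US (hoA' i) _) (S.x_mem_US (hstA _ (hoA' i)) _)
  have hgH : g ∈ H := list_prod_mem fun z hz => by
    obtain ⟨i, -, rfl⟩ := List.mem_map.1 hz
    exact hunitH i
  have hgTw : g ∈ C.Tw := list_prod_mem fun z hz => by
    obtain ⟨i, -, rfl⟩ := List.mem_map.1 hz
    refine C.unit_mem hR (hlt _ (hoA' i)) fun e => ?_
    have e' : pidx d l i = i := Fin.ext ((hnd1.getElem_inj_iff).1 (by
      show o (pidx d l i) = o i
      rw [hp, e]))
    have := hg1σ i
    rwa [e'] at this
  have hπg : π ⟨g, hgH⟩ = vec g1 := by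
    have key : ∀ L : List (Fin n), L.Nodup → (∀ i ∈ L, i ≤ pidx d l i) →
        ∀ h : (L.map fun i => C.unit (o i) (g1 i)).prod ∈ H,
          π ⟨_, h⟩ = vec (fun k => if k ∈ L ∨ pidx d l k ∈ L then g1 k else 0) := by
      intro L
      induction L with
      | nil =>
        intro _ _ h
        refine (congrArg π (Subtype.ext rfl : _ = (1 : ↥H))).trans ?_
        rw [map_one, ← vec_zero]
        congr 1
      | cons i L ih =>
        intro hnd' hle h
        obtain ⟨hiL, hndL⟩ := List.nodup_cons.1 hnd'
        have hLm : (L.map fun i => C.unit (o i) (g1 i)).prod ∈ H := list_prod_mem fun z hz => by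
          obtain ⟨j, -, rfl⟩ := List.mem_map.1 hz
          exact hunitH j
        rw [show (⟨_, h⟩ : ↥H) = ⟨_, hunitH i⟩ * ⟨_, hLm⟩ from Subtype.ext (by simp), map_mul,
          ih hndL (fun j hj => hle j (List.mem_cons_of_mem _ hj)) hLm]
        have hu : π ⟨_, hunitH i⟩ = vec (fun k => if k = i ∨ pidx d l k = i then g1 k else 0) := by
          have hsingle : ∀ (j : Fin n) (t : F), q (o j) t = vec (Pi.single j t) := fun j t => by
            simp only [vec]
            rw [List.prod_map_eq_pow_single j _ fun j' hj _ => by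
              rw [Pi.single_eq_of_ne hj, hq0 _ (hoA' j')], List.count_eq_one_of_mem (List.nodup_finRange n) (List.mem_finRange _),
              pow_one, Pi.single_eq_same]
          by_cases e : d.rt (o i) = o i
          · have e' : pidx d l i = i := Fin.ext ((hnd1.getElem_inj_iff).1 (by
              show o (pidx d l i) = o i
              rw [hp, e]))
            rw [show (⟨_, hunitH i⟩ : ↥H) = xH (o i) (g1 i) from Subtype.ext (by
              simp [TwCtx.unit, e, hxH _ (hoA' i)])]
            show q (o i) (g1 i) = _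
            rw [hsingle]
            congr 1
            funext k
            by_cases hk : k = i
            · subst hk; simp
            · rw [Pi.single_eq_of_ne hk, if_neg]
              rintro (h1 | h1)
              · exact hk h1
              · exact hk (by rw [← hpp k, h1, e'])
          · have e' : pidx d l i ≠ i := fun h' => e (by rw [← hp, h'])
            rw [show (⟨_, hunitH i⟩ : ↥H) = xH (o i) (g1 i) * xH (o (pidx d l i)) (C.φ (g1 i)) from Subtype.ext (by
              rw [Subgroup.coe_mul, hxH _ (hoA' i), hxH _ (hoA' (pidx d l i)), hp]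
              simp [TwCtx.unit, e]), map_mul]
            show q (o i) (g1 i) * q (o (pidx d l i)) (C.φ (g1 i)) = _
            rw [hsingle, hsingle, ← vec_add]
            congr 1
            funext k
            have hs := hg1σ (pidx d l i)
            rw [hpp] at hs
            by_cases hk : k = i
            · subst hk; simp [Ne.symm e']
            · by_cases hk2 : k = pidx d l i
              · subst hk2; simp [e', hpp, hs]
              · simp only [Pi.add_apply, Pi.single_eq_of_ne hk, Pi.single_eq_of_ne hk2, add_zero]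
                rw [if_neg]
                rintro (h1 | h1)
                · exact hk h1
                · exact hk2 (by rw [← hpp k, h1])
        rw [hu, ← vec_add]
        congr 1
        funext k
        simp only [Pi.add_apply, List.mem_cons]
        have hexcl : (k = i ∨ pidx d l k = i) → ¬ (k ∈ L ∨ pidx d l k ∈ L) := by
          rintro (rfl | h1) (h2 | h2)
          · exact hiL h2
          · have h3 := hle k List.mem_cons_self
            have h4 := hle _ (List.mem_cons_of_mem _ h2)
            rw [hpp] at h4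
            exact hiL (le_antisymm h3 h4 ▸ h2)
          · have h3 := hle i List.mem_cons_self
            have h4 := hle _ (List.mem_cons_of_mem _ h2)
            rw [← h1, hpp] at h3
            exact hiL (by rw [← h1, le_antisymm h3 h4]; exact h2)
          · exact hiL (h1 ▸ h2)
        by_cases h1 : k = i ∨ pidx d l k = i
        · rw [if_pos h1, if_neg (hexcl h1), add_zero, if_pos]
          exact h1.imp Or.inl Or.inl
        · rw [if_neg h1, zero_add]
          exact if_congr ⟨fun h => h.imp Or.inr Or.inr,
            fun h => h.elim (fun h => h.elim (fun h => absurd (Or.inl h) h1) Or.inl)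
              (fun h => h.elim (fun h => absurd (Or.inr h) h1) Or.inr)⟩ rfl rfl
    rw [key reps ((List.nodup_finRange n).filter _) (fun i hi => by simpa using (List.mem_filter.1 hi).2) hgH]
    congr 1
    funext k
    rw [if_pos]
    rcases le_total k (pidx d l k) with h | h
    · exact Or.inl (List.mem_filter.2 ⟨List.mem_finRange _, by simpa using h⟩)
    · exact Or.inr (List.mem_filter.2 ⟨List.mem_finRange _, by simpa [hpp] using h⟩)
  obtain ⟨hxg, hxgv⟩ := hxH' g hgH
  refine ⟨g, hgH, hgTw, x * g * x⁻¹ * m * g⁻¹, ?_, ?_, ?_⟩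
  · show x * g * x⁻¹ * m * g⁻¹ ∈ N0
    have e : (((⟨_, hxg⟩ : ↥H) * ⟨m, hm⟩ * (⟨g, hgH⟩ : ↥H)⁻¹ : ↥H) : GL D.Idx F) = x * g * x⁻¹ * m * g⁻¹ := rfl
    rw [← e, ← hπ1, map_mul, map_mul, map_inv, hπg, hxgv hgH hxg g1 hπg, hfm, ← vec_add,
      inv_eq_of_mul_eq_one_right (vec_self g1), ← vec_add]
    convert vec_zero using 2
    rw [add_assoc, add_comm fm g1, ← add_assoc, ← hDT, hDg1]
    funext i
    exact CharTwo.add_self_eq_zero _
  · have hgf := C.fixed g hgTw
    simp only [map_mul, map_inv, hxfix, hgf, hfix]
  · rw [hxinv]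
    simp [← mul_assoc, hxx]

end Cfsg.Agent.InvolTwist
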