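import Cfsg.Agent.InvolTwist.Ctx

/-!
# Conjugations in a twisted group of products of root elements, by computation (owner: helper52)
-/

set_option autoImplicit false

namespace Cfsg.Agent.InvolTwist

open Cfsg.Lie Cfsg.Agent.ChevGrp Cfsg.Agent.InvolFour
open scoped MatrixGroups

/-- A step: a conjugation by a fixed element or a rewriting of the word. -/
inductive TMove where
  | weyl (ks : List ℕ)
  | conj (s : ℕ)
  | lam (s : ℕ)
  | swap (i : ℕ)
  | cancel (i : ℕ)
  | norm

/-- The word of `x_s(1) E(L) x_s(1)`. -/
def conjList (D : ChevalleyDatum) (s : ℕ) (L : List ℕ) : List ℕ :=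
  L.flatMap fun j => if j == s then [j] else j :: (oddT D s j).map Prod.fst

/-- The conjugation is defined. -/
def conjOK (D : ChevalleyDatum) (s : ℕ) (L : List ℕ) : Bool :=
  L.all fun j => decide (j < D.nroots) && j != D.neg s

/-- The new roots of a conjugation with a parameter. -/
def lamList (D : ChevalleyDatum) (s : ℕ) (L : List ℕ) : List ℕ :=
  L.flatMap fun j => if j == s then [] else (oddT D s j).map Prod.fst

/-- All terms are linear in the parameter. -/
def lamOK (D : ChevalleyDatum) (s : ℕ) (L : List ℕ) : Bool :=
  conjOK D s L && L.all fun j => j == s || (oddT D s j).all fun c => c.2.2.1 == 1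

/-- One step. -/
def applyT (D : ChevalleyDatum) (d : TwDat D.rank) (L : List ℕ) : TMove → Option (List ℕ)
  | .weyl ks => if L.all (fun j => decide (j < D.nroots)) then some (L.map (act D (d.word ks))) else none
  | .conj s =>
    if decide (s < D.nroots) then
      if d.rt s == s then if conjOK D s L then some (conjList D s L) else none
      else if conjOK D s L && conjOK D (d.rt s) (conjList D s L) then some (conjList D (d.rt s) (conjList D s L))
      else none
    else none
  | .lam s =>
    if decide (s < D.nroots) && d.rt s != s && lamOK D s L && lamOK D (d.rt s) L &&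
        (lamList D (d.rt s) L).all (fun k => k != D.neg s && comB D s k) &&
        commAll D (L ++ lamList D s L ++ lamList D (d.rt s) L) &&
        (lamList D s L).isPerm (lamList D (d.rt s) L) then
      some (nrm (L ++ lamList D s L))
    else none
  | .swap i =>
    match L.drop i with
    | a :: b :: T =>
      if decide (a < D.nroots) && decide (b < D.nroots) && a != b && a != D.neg b then
        some (L.take i ++ (b :: a :: (oddT D b a).map Prod.fst ++ T))
      else none
    | _ => none
  | .cancel i =>
    match L.drop i with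
    | a :: b :: T => if decide (a < D.nroots) && a == b then some (L.take i ++ T) else none
    | _ => none
  | .norm => if commAll D L then some (nrm L) else none

/-- A sequence of steps. -/
def applyTs (D : ChevalleyDatum) (d : TwDat D.rank) : List ℕ → List TMove → Option (List ℕ)
  | L, [] => some L
  | L, m :: ms => match applyT D d L m with
    | none => none
    | some L' => applyTs D d L' ms

/-- The steps take `A` to one of the targets. -/
def tfuseOK (D : ChevalleyDatum) (d : TwDat D.rank) (tgts : List (List ℕ)) (A : List ℕ) (ms : List TMove) : Bool :=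
  match applyTs D d A ms with
  | none => false
  | some L => tgts.contains L

variable {D : ChevalleyDatum} {F : Type*} [Field F] [CharP F 2] {len : ℕ → ℕ}
  {hS : Rules D F} {d : TwDat D.rank} (C : TwCtx hS d) (hR : RootTable D len)

include hS hR in
theorem conjList_spec {s : ℕ} (hs : s < D.nroots) {L : List ℕ} (h : conjOK D s L = true) :
    xGL D F s 1 * E F L * xGL D F s 1 = E F (conjList D s L) := by
  simp only [conjOK, List.all_eq_true, Bool.and_eq_true, decide_eq_true_eq, bne_iff_ne] at h
  induction L with
  | nil => simp [InvolFour.E, conjList, InvolFour.x_self hS hs]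
  | cons a L ih =>
    have e : xGL D F s 1 * (xGL D F a 1 * E F L) * xGL D F s 1 =
        (xGL D F s 1 * xGL D F a 1 * xGL D F s 1) * (xGL D F s 1 * E F L * xGL D F s 1) := by
      simp [mul_assoc, ← mul_assoc (xGL D F s 1) (xGL D F s 1), InvolFour.x_self hS hs]
    rw [conjList, List.flatMap_cons, E_append, E_cons, e, ih fun b hb => h b (List.mem_cons_of_mem _ hb), conjList]
    congr 1
    obtain ⟨ha, hne⟩ := h a List.mem_cons_self
    by_cases has : a = s
    · subst has
      rw [if_pos (beq_self_eq_true a), InvolFour.x_self hS hs, one_mul]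
      simp [InvolFour.E]
    · rw [if_neg (by simpa using has), E_cons, x_conj hS hR hs ha has hne]
      simp [oddW, InvolFour.E, List.map_map, Function.comp_def]

include hS in
theorem x_swap {r : ℕ} (hr : r < D.nroots) (v : F) :
    xGL D F r v * xGL D F r 1 * xGL D F r v = xGL D F r 1 := by
  show (glSys hS).x r v * (glSys hS).x r 1 * (glSys hS).x r v = (glSys hS).x r 1
  rw [(glSys hS).x_add r hr, (glSys hS).x_add r hr]
  congr 1
  rw [add_comm v 1, add_assoc, CharTwo.add_self_eq_zero, add_zero]

include C hR in
theorem lam_spec {s : ℕ} (hs : s < D.nroots) {L : List ℕ} (hrs : d.rt s ≠ s) (h1 : lamOK D s L = true)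
    (h2 : lamOK D (d.rt s) L = true) (hY : ∀ k ∈ lamList D (d.rt s) L, k ≠ D.neg s ∧ comB D s k = true)
    (hc : commAll D (L ++ lamList D s L ++ lamList D (d.rt s) L) = true)
    (hp : (lamList D s L).Perm (lamList D (d.rt s) L)) :
    ∃ g ∈ C.Tw, g * E F L * g⁻¹ = E F (L ++ lamList D s L) := by
  obtain ⟨hs', -, -, hss, hss', -⟩ := C.rt_spec hs
  set s' := d.rt s with hs'def
  refine ⟨C.unit s C.lam, C.unit_mem hR hs fun e => absurd e hrs, ?_⟩
  have hu : C.unit s C.lam = xGL D F s C.lam * xGL D F s' (C.φ C.lam) := by
    simp only [TwCtx.unit, if_neg hrs, ← hs'def]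
  set μ := C.φ C.lam with hμ
  have hmu : C.lam + μ = 1 := C.lam_tr
  clear_value μ
  have hlt : ∀ k ∈ L ++ lamList D s L ++ lamList D s' L, k < D.nroots := fun k hk => (commAll_spec hc k hk).1
  -- the products of root elements with equal parameters
  let P : List ℕ → F → GL D.Idx F := fun K t => (K.map fun k => xGL D F k t).prod
  have hcom : ∀ a ∈ L ++ lamList D s L ++ lamList D s' L, ∀ b ∈ L ++ lamList D s L ++ lamList D s' L,
      ∀ t u : F, Commute (xGL D F a t) (xGL D F b u) := fun a ha b hb =>
    commute_x hS hR (hlt a ha) (hlt b hb) ((commAll_spec hc a ha).2 b hb)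
  have hPc : ∀ (K : List ℕ) (t : F), (∀ k ∈ K, k ∈ L ++ lamList D s L ++ lamList D s' L) →
      ∀ a ∈ L ++ lamList D s L ++ lamList D s' L, ∀ u : F, Commute (xGL D F a u) (P K t) := fun K t hK a ha u =>
    Commute.list_prod_right _ _ fun z hz => by
      obtain ⟨k, hk, rfl⟩ := List.mem_map.1 hz
      exact hcom a ha k (hK k hk) u t
  have key : ∀ (r : ℕ), r < D.nroots → ∀ (v : F) (K : List ℕ), lamOK D r K = true →
      (∀ k ∈ K ++ lamList D r K, k ∈ L ++ lamList D s L ++ lamList D s' L) →
      xGL D F r v * E F K * xGL D F r v = E F K * P (lamList D r K) v := by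
    intro r hr v K
    induction K with
    | nil => intro _ _; simp [InvolFour.E, lamList, P, InvolFour.x_self hS hr]
    | cons a K ih =>
      intro hok hmem
      simp only [lamOK, conjOK, List.all_eq_true, Bool.and_eq_true, decide_eq_true_eq, bne_iff_ne,
        Bool.or_eq_true, beq_iff_eq] at hok
      obtain ⟨hok1, hok2⟩ := hok
      have hok' : lamOK D r K = true := by
        simp only [lamOK, conjOK, List.all_eq_true, Bool.and_eq_true, decide_eq_true_eq, bne_iff_ne,
          Bool.or_eq_true, beq_iff_eq]
        exact ⟨fun b hb => hok1 b (List.mem_cons_of_mem _ hb), fun b hb => hok2 b (List.mem_cons_of_mem _ hb)⟩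
      have hmem' : ∀ k ∈ K ++ lamList D r K, k ∈ L ++ lamList D s L ++ lamList D s' L := by
        intro k hk
        refine hmem k ?_
        rcases List.mem_append.1 hk with h | h
        · exact List.mem_append_left _ (List.mem_cons_of_mem _ h)
        · refine List.mem_append_right _ ?_
          rw [lamList, List.flatMap_cons]
          exact List.mem_append_right _ h
      have e : xGL D F r v * (xGL D F a 1 * E F K) * xGL D F r v =
          (xGL D F r v * xGL D F a 1 * xGL D F r v) * (xGL D F r v * E F K * xGL D F r v) := by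
        simp [mul_assoc, ← mul_assoc (xGL D F r v) (xGL D F r v), InvolFour.x_self hS hr]
      obtain ⟨ha, hne⟩ := hok1 a List.mem_cons_self
      rw [E_cons, e, ih hok' hmem']
      simp only [lamList, List.flatMap_cons]
      by_cases har : a = r
      · subst har
        rw [if_pos (beq_self_eq_true a), List.nil_append, mul_assoc (xGL D F a 1),
          (x_swap (hS := hS) hr v), ← mul_assoc]
      · rw [if_neg (by simpa using har), x_conj hS hR hr ha har hne]
        have hw : oddW r a v 1 = P ((oddT D r a).map Prod.fst) v := by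
          simp only [oddW, P, List.map_map]
          refine congrArg List.prod (List.map_congr_left fun c hc => ?_)
          have h1 := (hok2 a List.mem_cons_self).resolve_left har c hc
          simp [h1]
        have hmT : ∀ k ∈ (oddT D r a).map Prod.fst, k ∈ L ++ lamList D s L ++ lamList D s' L := fun k hk =>
          hmem k (List.mem_append_right _ (by
            rw [lamList, List.flatMap_cons, if_neg (by simpa using har)]
            exact List.mem_append_left _ hk))
        have hsw : Commute (P ((oddT D r a).map Prod.fst) v) (E F K) :=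
          (Commute.list_prod_left _ _ fun z hz => by
            obtain ⟨b, hb, rfl⟩ := List.mem_map.1 hz
            exact hPc _ v hmT b (hmem' b (List.mem_append_left _ hb)) 1).symm
        rw [hw, mul_assoc, ← mul_assoc (P _ v), hsw.eq]
        simp only [P, List.map_append, List.prod_append, mul_assoc]
  have hXmem : ∀ k ∈ L ++ lamList D s L, k ∈ L ++ lamList D s L ++ lamList D s' L :=
    fun k hk => List.mem_append_left _ hk
  have hYmem : ∀ k ∈ L ++ lamList D s' L, k ∈ L ++ lamList D s L ++ lamList D s' L := fun k hk => by
    rcases List.mem_append.1 hk with h | h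
    · exact List.mem_append_left _ (List.mem_append_left _ h)
    · exact List.mem_append_right _ h
  have hYs : Commute (xGL D F s C.lam) (P (lamList D s' L) μ) := Commute.list_prod_right _ _ fun z hz => by
    obtain ⟨k, hk, rfl⟩ := List.mem_map.1 hz
    exact commute_x hS hR hs (hlt k (hYmem k (List.mem_append_right _ hk))) (hY k hk).2 _ _
  have hinv : (C.unit s C.lam)⁻¹ = C.unit s C.lam := by
    rw [hu]
    exact inv_eq_of_mul_eq_one_right (by
      rw [(commute_x hS hR hs hs' hss C.lam μ).symm.mul_mul_mul_comm, InvolFour.x_self hS hs,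
        InvolFour.x_self hS hs', one_mul])
  have hPP : P (lamList D s L) C.lam * P (lamList D s' L) μ = P (lamList D s L) 1 := by
    have hperm : P (lamList D s' L) μ = P (lamList D s L) μ := by
      refine ((hp.map fun k => xGL D F k μ).prod_eq' ?_).symm
      refine List.pairwise_of_forall_mem_list fun x hx y hy => ?_
      obtain ⟨a, ha, rfl⟩ := List.mem_map.1 hx
      obtain ⟨b, hb, rfl⟩ := List.mem_map.1 hy
      exact hcom a (hXmem a (List.mem_append_right _ ha)) b (hXmem b (List.mem_append_right _ hb)) μ μ
    rw [hperm]
    have gen : ∀ K : List ℕ, (∀ k ∈ K, k ∈ L ++ lamList D s L ++ lamList D s' L) →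
        P K C.lam * P K μ = P K 1 := by
      intro K
      induction K with
      | nil => intro _; simp [P]
      | cons k K ih =>
        intro hK
        have hk := hK k List.mem_cons_self
        have hsw := (hPc K C.lam (fun k' h => hK k' (List.mem_cons_of_mem _ h)) k hk μ).symm
        have hxx : xGL D F k C.lam * xGL D F k μ = xGL D F k 1 := by
          rw [← hmu]
          exact (glSys hS).x_add k (hlt k hk) C.lam μ
        simp only [P, List.map_cons, List.prod_cons] at hsw ⊢
        rw [hsw.mul_mul_mul_comm, hxx]
        exact congrArg _ (ih fun k' h => hK k' (List.mem_cons_of_mem _ h))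
    exact gen _ fun k hk => hXmem k (List.mem_append_right _ hk)
  rw [hinv, hu]
  calc xGL D F s C.lam * xGL D F s' μ * E F L * (xGL D F s C.lam * xGL D F s' μ)
      = xGL D F s C.lam * (xGL D F s' μ * E F L * xGL D F s' μ) * xGL D F s C.lam := by
        conv_lhs => rw [(commute_x hS hR hs hs' hss C.lam μ).eq]
        conv_lhs => arg 1; arg 1; rw [← (commute_x hS hR hs hs' hss C.lam μ).eq]
        simp only [mul_assoc]
    _ = (xGL D F s C.lam * E F L * xGL D F s C.lam) * P (lamList D s' L) μ := by
        rw [key s' hs' μ L h2 hYmem]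
        simp only [mul_assoc, hYs.eq]
    _ = E F L * (P (lamList D s L) C.lam * P (lamList D s' L) μ) := by
        rw [key s hs C.lam L h1 hXmem, mul_assoc]
    _ = E F (L ++ lamList D s L) := by rw [hPP, E_append]; rfl

include C hR in
theorem applyT_spec {L L' : List ℕ} {m : TMove} (h : applyT D d L m = some L') :
    ∃ g ∈ C.Tw, g * E F L * g⁻¹ = E F L' := by
  cases m with
  | weyl ks =>
    simp only [applyT, Option.ite_none_right_eq_some, List.all_eq_true, decide_eq_true_eq, Option.some.injEq] at h
    obtain ⟨hlt, rfl⟩ := h
    refine ⟨_, C.word_mem ks, ?_⟩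
    induction L with
    | nil => simp [InvolFour.E]
    | cons a L ih =>
      rw [List.map_cons, E_cons, E_cons, ← nW_conj hS hR (d.word ks) (hlt a List.mem_cons_self) 1,
        ← ih fun b hb => hlt b (List.mem_cons_of_mem _ hb)]
      simp [mul_assoc]
  | conj s =>
    simp only [applyT, Option.ite_none_right_eq_some, decide_eq_true_eq] at h
    obtain ⟨hs, h⟩ := h
    refine ⟨C.unit s 1, C.unit_mem hR hs fun _ => map_one _, ?_⟩
    by_cases e : d.rt s = s
    · rw [if_pos (by simpa using e)] at h
      simp only [Option.ite_none_right_eq_some, Option.some.injEq] at h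
      obtain ⟨h1, rfl⟩ := h
      simp only [TwCtx.unit, if_pos e, InvolFour.x_inv hS hs]
      exact conjList_spec (hS := hS) hR hs h1
    · rw [if_neg (by simpa using e)] at h
      simp only [Option.ite_none_right_eq_some, Bool.and_eq_true, Option.some.injEq] at h
      obtain ⟨⟨h1, h2⟩, rfl⟩ := h
      obtain ⟨hs', -, -, hss, -⟩ := C.rt_spec hs
      simp only [TwCtx.unit, if_neg e, map_one, mul_inv_rev, InvolFour.x_inv hS hs, InvolFour.x_inv hS hs']
      rw [← conjList_spec (F := F) (hS := hS) hR hs' h2, ← conjList_spec (F := F) (hS := hS) hR hs h1,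
        (commute_x hS hR hs hs' hss (1 : F) 1).eq]
      conv_lhs => arg 2; rw [← (commute_x hS hR hs hs' hss (1 : F) 1).eq]
      simp only [mul_assoc]
  | lam s =>
    simp only [applyT, Option.ite_none_right_eq_some, Bool.and_eq_true, decide_eq_true_eq, bne_iff_ne,
      List.all_eq_true, Option.some.injEq] at h
    obtain ⟨⟨⟨⟨⟨⟨⟨hs, hrs⟩, h1⟩, h2⟩, hY⟩, hc⟩, hp⟩, rfl⟩ := h
    obtain ⟨g, hg, e⟩ := lam_spec C hR hs hrs h1 h2 hY hc (List.isPerm_iff.1 hp)
    refine ⟨g, hg, ?_⟩
    rw [e, E_nrm hS hR]
    simp only [commAll, List.all_eq_true, Bool.and_eq_true, decide_eq_true_eq] at hc ⊢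
    exact fun a ha => ⟨(hc a (List.mem_append_left _ ha)).1,
      fun b hb => (hc a (List.mem_append_left _ ha)).2 b (List.mem_append_left _ hb)⟩
  | swap i =>
    refine ⟨1, one_mem _, ?_⟩
    simp only [one_mul, inv_one, mul_one]
    simp only [applyT] at h
    split at h
    · next a b T hd =>
      simp only [Option.ite_none_right_eq_some, Bool.and_eq_true, decide_eq_true_eq, bne_iff_ne,
        Option.some.injEq] at h
      obtain ⟨⟨⟨⟨ha, hb⟩, hab⟩, hne⟩, rfl⟩ := h
      conv_lhs => rw [← List.take_append_drop i L, hd]
      simp only [E_append, E_cons, List.cons_append]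
      have e := x_conj hS hR (F := F) hb ha hab hne 1 1
      have e2 : xGL D F a 1 * xGL D F b 1 = xGL D F b 1 * xGL D F a 1 * oddW b a 1 1 := by
        rw [mul_assoc (xGL D F b 1) (xGL D F a 1), ← e, ← mul_assoc, ← mul_assoc, InvolFour.x_self hS hb, one_mul]
      have e3 : oddW (D := D) b a (1 : F) 1 = E F ((oddT D b a).map Prod.fst) := by
        simp [oddW, InvolFour.E, List.map_map, Function.comp_def]
      rw [← e3, ← mul_assoc (xGL D F a 1), e2]
      simp only [mul_assoc]
    · simp at h
  | cancel i =>
    refine ⟨1, one_mem _, ?_⟩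
    simp only [one_mul, inv_one, mul_one]
    simp only [applyT] at h
    split at h
    · next a b T hd =>
      simp only [Option.ite_none_right_eq_some, Bool.and_eq_true, decide_eq_true_eq, beq_iff_eq,
        Option.some.injEq] at h
      obtain ⟨⟨ha, rfl⟩, rfl⟩ := h
      conv_lhs => rw [← List.take_append_drop i L, hd]
      simp only [E_append, E_cons]
      rw [← mul_assoc (xGL D F a 1), InvolFour.x_self hS ha, one_mul]
    · simp at h
  | norm =>
    simp only [applyT, Option.ite_none_right_eq_some, Option.some.injEq] at h
    obtain ⟨h1, rfl⟩ := h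
    exact ⟨1, one_mem _, by rw [E_nrm hS hR h1]; simp⟩

include C hR in
theorem tfuseOK_spec {tgts : List (List ℕ)} {A : List ℕ} {ms : List TMove}
    (h : tfuseOK D d tgts A ms = true) : ∃ T ∈ tgts, ∃ g ∈ C.Tw, g * E F A * g⁻¹ = E F T := by
  unfold tfuseOK at h
  induction ms generalizing A with
  | nil =>
    simp only [applyTs, List.contains_iff_mem] at h
    exact ⟨A, h, 1, one_mem _, by simp⟩
  | cons m ms ih =>
    rw [applyTs] at h
    cases e : applyT D d A m with
    | none => rw [e] at h; simp at h
    | some L1 =>
      rw [e] at h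
      obtain ⟨g1, hg1, e1⟩ := applyT_spec C hR e
      obtain ⟨T, hT, g2, hg2, e2⟩ := ih h
      refine ⟨T, hT, g2 * g1, mul_mem hg2 hg1, ?_⟩
      rw [← e2, ← e1]
      simp [mul_assoc]

end Cfsg.Agent.InvolTwist
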