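import Cfsg.Agent.InvolTwist.Layer
import Cfsg.Agent.InvolTwist.Moves

/-!
# Every involution of a twisted `U` is conjugate to a product of orthogonal root elements (owner: helper52)
-/

set_option autoImplicit false

namespace Cfsg.Agent.InvolTwist

open Cfsg.Lie Cfsg.Agent.ChevGrp Cfsg.Agent.InvolFour
open scoped MatrixGroups

/-- A reflection lowering the root `r`, as a sequence of orbits. -/
structure TRefl where
  r : ℕ
  ks : List ℕ

/-- The reduction at a fundamental orbit `B` of the system. -/
structure TStrip where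
  B : List ℕ
  rest : List ℕ
  layers : List TLay
  perp : List ℕ

/-- A node of the reduction. -/
structure TNode where
  A : List ℕ
  psi : List ℕ
  chain : List (List ℕ)
  refls : List TRefl
  strips : List TStrip
  moves : List TMove

/-- The condition on a reflection. -/
def treflOK (D : ChevalleyDatum) (d : TwDat D.rank) (A psi C : List ℕ) (e : TRefl) : Bool :=
  (A.all fun a => act D (d.word e.ks) a == a) && (C.all fun c => psi.contains (act D (d.word e.ks) c)) &&
  (C.all fun c => psi.contains (act D (d.word e.ks).reverse c)) &&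
  intoB D (C.map (act D (d.word e.ks).reverse)) (C.map (act D (d.word e.ks).reverse)) &&
  !(C.map (act D (d.word e.ks).reverse)).contains e.r

/-- The condition on the chain of systems. -/
def tchainOK (D : ChevalleyDatum) (d : TwDat D.rank) (A psi : List ℕ) (bs : List ℕ) (refls : List TRefl) :
    List ℕ → List (List ℕ) → Bool
  | C, [] => C.isEmpty
  | C, C' :: t =>
    decide C.Nodup && intoB D C C && (C'.all fun r => C.contains r) &&
      (C.all fun r => C'.contains r || bs.contains r ||
        refls.any fun e => e.r == r && treflOK D d A psi C e) &&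
      tchainOK D d A psi bs refls C' t

/-- The condition on the layers. -/
def tlayersOK (D : ChevalleyDatum) (d : TwDat D.rank) (B perp : List ℕ) : List ℕ → List TLay → Bool
  | R, [] => R.all fun r => perp.contains r
  | R, l :: t => tlayOK D d B R l && tlayersOK D d B perp l.next t

/-- The twist permutes the coordinates of the coroots along the nodes. -/
def corootB (D : ChevalleyDatum) (d : TwDat D.rank) (b : ℕ) : Bool :=
  (List.range D.rank).all fun i => decide (d.nu.getD i 0 < D.rank) &&
    (D.coroot.getD (d.rt b) #[]).getD (d.nu.getD i 0) 0 == (D.coroot.getD b #[]).getD i 0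

/-- The condition on the orbit `B`. -/
def orbitB (D : ChevalleyDatum) (d : TwDat D.rank) (A : List ℕ) : List ℕ → Bool
  | [b] => d.rt b == b && pairing D b b == 2 && corootB D d b && A.all fun a => pairing D b a == 0
  | [b, b'] => d.rt b == b' && d.rt b' == b && pairing D b b == 2 && pairing D b' b' == 2 && pairing D b b' == 0 &&
      pairing D b' b == 0 && comB D b b' && comB D b' b && corootB D d b && corootB D d b' &&
      A.all fun a => pairing D b a == 0 && pairing D b' a == 0
  | _ => false

/-- The condition on a reduction step. -/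
def tstripOK (D : ChevalleyDatum) (d : TwDat D.rank) (A psi : List ℕ) (children : List TNode) (st : TStrip) : Bool :=
  (st.B.all fun b => psi.contains b) && orbitB D d A st.B &&
  decide (st.B ++ st.rest).Nodup && (psi.all fun r => st.B.contains r || st.rest.contains r) &&
  (st.rest.all fun r => psi.contains r) && intoB D st.rest st.rest && stableB d st.rest &&
  tlayersOK D d st.B st.perp st.rest st.layers &&
  (st.perp.all fun p => psi.contains p && st.B.all fun b => comB D b p) &&
  (st.B.all fun b => intoB D ((st.B ++ st.rest).filter fun r => r != b) ((st.B ++ st.rest).filter fun r => r != b)) &&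
  children.any fun c => c.A == A ++ st.B && st.perp.all fun p => c.psi.contains p

/-- The condition on a node, given the nodes after it. -/
def tnodeOK (D : ChevalleyDatum) (d : TwDat D.rank) (tgts : List (List ℕ)) (children : List TNode) (n : TNode) :
    Bool :=
  (n.psi.all fun r => decide (D.IsPosRoot r)) &&
  (n.A.all fun a => decide (a < D.nroots) && n.psi.all fun p => comB D a p) &&
  intoB D n.psi n.psi &&
  tchainOK D d n.A n.psi (n.strips.flatMap TStrip.B) n.refls n.psi n.chain &&
  (n.strips.all fun st => tstripOK D d n.A n.psi children st) &&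
  (n.A.isEmpty || tfuseOK D d tgts n.A n.moves)

/-- The condition on a list of nodes. -/
def tallOK (D : ChevalleyDatum) (d : TwDat D.rank) (tgts : List (List ℕ)) : List TNode → Bool
  | [] => true
  | n :: t => tnodeOK D d tgts t n && tallOK D d tgts t

variable {D : ChevalleyDatum} {F : Type*} [Field F] [CharP F 2] {len : ℕ → ℕ}
  {hS : Rules D F} {d : TwDat D.rank} (C : TwCtx hS d) (hR : RootTable D len) (tgts : List (List ℕ))

/-- Conjugate in the twisted group to a target. -/
def TConj (C : TwCtx hS d) (tgts : List (List ℕ)) (u : GL D.Idx F) : Prop :=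
  ∃ T ∈ tgts, ∃ h ∈ C.Tw, h * u * h⁻¹ = E F T

omit [CharP F 2] in
theorem TConj.of_conj {u g : GL D.Idx F} (hg : g ∈ C.Tw) (h : TConj C tgts (g * u * g⁻¹)) : TConj C tgts u := by
  obtain ⟨T, hT, k, hk, e⟩ := h
  refine ⟨T, hT, k * g, mul_mem hk hg, ?_⟩
  rw [← e]
  simp [mul_assoc]

include C hR in
theorem tlayers_spec {B : List ℕ} (hB : ∀ b ∈ B, b < D.nroots) (hBc : ∀ a ∈ B, ∀ b ∈ B, comB D a b = true)
    (hxfix : C.σ (E F B) = E F B) {perp psi : List ℕ} (hpsi : ∀ r ∈ psi, D.IsPosRoot r) :
    ∀ (ls' : List TLay) (R : List ℕ), tlayersOK D d B perp R ls' = true → (∀ r ∈ R, r ∈ psi) →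
    ∀ m ∈ (glSys hS).US (ls R), C.σ m = m → E F B * m * (E F B * m) = 1 →
    ∃ g ∈ (glSys hS).US (ls psi), g ∈ C.Tw ∧ ∃ n ∈ (glSys hS).US (ls perp),
      C.σ n = n ∧ g * (E F B * m) * g⁻¹ = E F B * n := by
  intro ls'
  induction ls' with
  | nil =>
    intro R h _ m hm hfix _
    simp only [tlayersOK, List.all_eq_true, List.contains_iff_mem] at h
    exact ⟨1, one_mem _, one_mem _, m, (glSys hS).US_mono (fun r hr => h r hr) hm, hfix, by simp⟩
  | cons l t ih =>
    intro R h hRp m hm hfix hsq
    simp only [tlayersOK, Bool.and_eq_true] at h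
    obtain ⟨g, hg, hgT, n, hn, hnf, e⟩ :=
      tlayer_step C hR hB hBc (fun r hr => hpsi r (hRp r hr)) h.1 hm hfix hxfix hsq
    have hnp : ∀ r ∈ l.next, r ∈ psi := by
      intro r hr
      have hok := h.1
      simp only [tlayOK, Bool.and_eq_true, List.all_eq_true, List.contains_iff_mem] at hok
      exact hRp r (hok.1.1.1.1.1.1.2 r (by simp [TLay.all, hr]))
    have hsq' : E F B * n * (E F B * n) = 1 := by
      rw [← e, _root_.conj_mul, hsq, mul_one, mul_inv_cancel]
    obtain ⟨g', hg', hgT', n', hn', hnf', e'⟩ := ih l.next h.2 hnp n hn hnf hsq'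
    refine ⟨g' * g, mul_mem hg' ((glSys hS).US_mono (fun r hr => hRp r hr) hg), mul_mem hgT' hgT, n', hn', hnf', ?_⟩
    rw [← e', ← e]
    simp [mul_assoc]

/-- An element conjugating every root element by a scalar. -/
def Scales (h : GL D.Idx F) (e : ℕ → F) : Prop :=
  ∀ s < D.nroots, ∀ t : F, h * xGL D F s t * h⁻¹ = xGL D F s (e s * t)

include C hR in
theorem exists_tscale [Fintype F] {A B : List ℕ} (hB : orbitB D d A B = true) (hlt : ∀ b ∈ B, b < D.nroots)
    {c : ℕ → F} (hc : ∀ b ∈ B, c b ≠ 0) (hcσ : ∀ b ∈ B, c (d.rt b) = C.φ (c b)) :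
    ∃ h ∈ C.Tw, ∃ e : ℕ → F, Scales (D := D) h e ∧ (∀ b ∈ B, e b * c b = 1) ∧ ∀ a ∈ A, e a = 1 := by
  have hM := glSys_HMul hS hR
  have sqrt : ∀ x : F, x ≠ 0 → ∃ y : Fˣ, (y : F) * y = x⁻¹ := fun x hx => by
    obtain ⟨y, hy⟩ := FiniteField.isSquare_of_char_two (F := F) (ringChar.eq F 2) x⁻¹
    exact ⟨Units.mk0 y fun e => inv_ne_zero hx (by rw [hy, e, zero_mul]), hy.symm⟩
  let cc : ℕ → Fˣ → Fin D.rank → Fˣ := fun b u j => u ^ (D.coroot.getD b #[]).getD j.val 0
  have hprod : ∀ b u s, (∏ j : Fin D.rank, cc b u j ^ D.cartan j s : Fˣ) = u ^ pairing D b s := by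
    intro b u s
    have hsum : pairing D b s = ∑ j : Fin D.rank, (D.coroot.getD b #[]).getD j.val 0 * D.cartan j s := by
      rw [Fin.sum_univ_eq_sum_range (fun j => (D.coroot.getD b #[]).getD j 0 * D.cartan j s) D.rank]
      rfl
    rw [hsum]
    simp only [cc, ← zpow_mul]
    induction (Finset.univ : Finset (Fin D.rank)) using Finset.induction with
    | empty => simp
    | insert a S ha ih => rw [Finset.prod_insert ha, Finset.sum_insert ha, zpow_add, ih]
  have hφ : ∀ (u : Fˣ) (k : ℤ), ((Units.map (C.φ : F →* F) u ^ k : Fˣ) : F) = C.φ ((u ^ k : Fˣ) : F) := fun u k => by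
    rw [← map_zpow]; rfl
  match B, hB with
  | [b], hB =>
    simp only [orbitB, Bool.and_eq_true, beq_iff_eq, List.all_eq_true] at hB
    obtain ⟨⟨⟨hbb, hb2⟩, hco⟩, hA⟩ := hB
    simp only [corootB, List.all_eq_true, List.mem_range, Bool.and_eq_true, decide_eq_true_eq, beq_iff_eq, hbb] at hco
    obtain ⟨u, hu⟩ := sqrt (c b) (hc b List.mem_cons_self)
    have huf : C.φ (u : F) = u := by
      have h1 : C.φ (u : F) * C.φ (u : F) = (u : F) * u := by
        have h2 := hcσ b List.mem_cons_self
        rw [hbb] at h2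
        rw [← map_mul, hu, map_inv₀, ← h2]
      exact CharTwo.sq_injective (by simpa [sq] using h1)
    refine ⟨(glSys hS).tau hS hR hM (cc b u), C.tau_mem len hR _ ?_,
      fun s => ((u ^ pairing D b s : Fˣ) : F), fun s hs t => ?_, ?_, fun a ha => by simp [hA a ha]⟩
    · intro i j hij
      simp only [cc]
      rw [← hφ]
      have e : Units.map (C.φ : F →* F) u = u := Units.ext huf
      rw [e, ← hij, (hco i i.2).2]
    · simp only [← hprod]
      exact ChevTw.tau_conj hS hR hM _ hs t
    · intro x hx
      rw [List.mem_singleton.1 hx]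
      simp only [hb2]
      rw [Units.val_zpow_eq_zpow_val, show (2 : ℤ) = ((2 : ℕ) : ℤ) from rfl, zpow_natCast, sq, hu,
        inv_mul_cancel₀ (hc b List.mem_cons_self)]
  | [b, b'], hB =>
    simp only [orbitB, Bool.and_eq_true, beq_iff_eq, List.all_eq_true] at hB
    obtain ⟨⟨⟨⟨⟨⟨⟨⟨⟨⟨h1, h2⟩, h3⟩, h4⟩, h5⟩, h6⟩, -⟩, -⟩, hco⟩, hco'⟩, hA⟩ := hB
    simp only [corootB, List.all_eq_true, List.mem_range, Bool.and_eq_true, decide_eq_true_eq, beq_iff_eq, h1, h2]
      at hco hco'
    obtain ⟨u, hu⟩ := sqrt (c b) (hc b List.mem_cons_self)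
    set u' := Units.map (C.φ : F →* F) u
    have hu' : (u' : F) * u' = (c b')⁻¹ := by
      show C.φ (u : F) * C.φ (u : F) = _
      rw [← map_mul, hu, map_inv₀, ← hcσ b List.mem_cons_self, h1]
    refine ⟨(glSys hS).tau hS hR hM (cc b u * cc b' u'), C.tau_mem len hR _ ?_,
      fun s => ((u ^ pairing D b s * u' ^ pairing D b' s : Fˣ) : F), fun s hs t => ?_, ?_,
      fun a ha => by simp [(hA a ha).1, (hA a ha).2]⟩
    · intro i j hij
      simp only [cc, Pi.mul_apply, Units.val_mul, map_mul]
      rw [← hφ, ← hφ]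
      have e : Units.map (C.φ : F →* F) u' = u := Units.ext (C.φ_invol _)
      rw [e, ← hij, (hco i i.2).2, ← (hco' i i.2).2, mul_comm]
    · simp only [← hprod, ← Finset.prod_mul_distrib]
      have e := ChevTw.tau_conj hS hR hM (cc b u * cc b' u') hs t
      simp only [Pi.mul_apply, mul_zpow] at e
      exact e
    · intro x hx
      rcases List.mem_cons.1 hx with rfl | hx
      · simp only [h3, h6, zpow_zero, mul_one]
        rw [Units.val_zpow_eq_zpow_val, show (2 : ℤ) = ((2 : ℕ) : ℤ) from rfl, zpow_natCast, sq, hu,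
          inv_mul_cancel₀ (hc _ List.mem_cons_self)]
      · rw [List.mem_singleton.1 hx]
        simp only [h4, h5, zpow_zero, one_mul]
        rw [Units.val_zpow_eq_zpow_val, show (2 : ℤ) = ((2 : ℕ) : ℤ) from rfl, zpow_natCast, sq, hu',
          inv_mul_cancel₀ (hc _ (by simp))]
  | [], hB => simp [orbitB] at hB
  | _ :: _ :: _ :: _, hB => simp [orbitB] at hB

include C hR in
theorem tnode_spec [Fintype F] {children : List TNode} {n : TNode}
    (hok : tnodeOK D d tgts children n = true)
    (hch : ∀ c ∈ children, ∀ v ∈ (glSys hS).US (ls c.psi), C.σ v = v → v * v = 1 → E F c.A * v ≠ 1 →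
      TConj C tgts (E F c.A * v)) :
    ∀ v ∈ (glSys hS).US (ls n.psi), C.σ v = v → v * v = 1 → E F n.A * v ≠ 1 → TConj C tgts (E F n.A * v) := by
  classical
  simp only [tnodeOK, Bool.and_eq_true, Bool.or_eq_true, List.all_eq_true, decide_eq_true_eq] at hok
  obtain ⟨⟨⟨⟨⟨hpos, hA⟩, hinto⟩, hchain⟩, hstr⟩, hfus⟩ := hok
  set S := glSys hS
  have hlt : ∀ r ∈ n.psi, r < D.nroots := fun r hr => (hpos r hr).1
  have hcA : ∀ g ∈ S.US (ls n.psi), Commute (E F n.A) g := fun g hg =>
    commute_E hS hR hlt (fun a ha => hA a ha) hg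
  have hpc : UClosed D len (htHom D) (ls n.psi) := closed_of_subset hR hpos hinto
  have hscaleA : ∀ (h : GL D.Idx F) (e : ℕ → F), Scales (D := D) h e → (∀ a ∈ n.A, e a = 1) →
      h * E F n.A * h⁻¹ = E F n.A := by
    intro h e hs he
    have : ∀ L : List ℕ, (∀ a ∈ L, a ∈ n.A) → h * E F L * h⁻¹ = E F L := by
      intro L
      induction L with
      | nil => intro _; simp [InvolFour.E]
      | cons a L ih =>
        intro hL
        have ha := hL a List.mem_cons_self
        have e2 := hs a (hA a ha).1 1
        rw [he a ha, mul_one] at e2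
        have e3 : h * (xGL D F a 1 * E F L) * h⁻¹ = (h * xGL D F a 1 * h⁻¹) * (h * E F L * h⁻¹) := by
          simp [mul_assoc]
        rw [E_cons, e3, e2, ih fun b hb => hL b (List.mem_cons_of_mem _ hb)]
    exact this n.A fun a h => h
  -- a fundamental orbit of the system in the support
  have hstrip : ∀ st ∈ n.strips, ∀ v ∈ S.US (ls n.psi), C.σ v = v → v * v = 1 →
      (∃ b ∈ st.B, v ∉ S.US (ls ((st.B ++ st.rest).filter fun r => r != b))) →
      E F n.A * v ≠ 1 → TConj C tgts (E F n.A * v) := by
    intro st hst v hv hfix hsq hnot hne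
    have h := hstr st hst
    simp only [tstripOK, Bool.and_eq_true, List.all_eq_true, List.contains_iff_mem, beq_iff_eq,
      decide_eq_true_eq, Bool.or_eq_true, List.any_eq_true, stableB] at h
    obtain ⟨⟨⟨⟨⟨⟨⟨⟨⟨⟨hBp, horb⟩, hnd⟩, hsub⟩, hrest⟩, hrinto⟩, hrst⟩, hlay⟩, hperp⟩, -⟩, c, hc, hcA', hcpsi⟩ := h
    have hBl : ∀ b ∈ st.B, b < D.nroots := fun b hb => hlt b (hBp b hb)
    -- the orbit
    have hBfacts : (∀ b ∈ st.B, d.rt b ∈ st.B) ∧ (∀ a ∈ st.B, ∀ b ∈ st.B, comB D a b = true) ∧
        C.σ (E F st.B) = E F st.B ∧ ∀ t : ℕ → F, C.σ (S.P st.B t) = S.P st.B fun r => C.φ (t (d.rt r)) := by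
      rcases hB : st.B with _ | ⟨b, _ | ⟨b', _ | ⟨b'', L⟩⟩⟩
      · rw [hB] at horb; simp [orbitB] at horb
      · rw [hB] at horb hBl
        simp only [orbitB, Bool.and_eq_true, beq_iff_eq] at horb
        have hb := hBl b List.mem_cons_self
        have e := horb.1.1.1
        refine ⟨by simp [e], by simp [comB], ?_, fun t => ?_⟩
        · simp [InvolFour.E, C.σ_x b hb, e]
        · simp only [Sys.P, List.map_cons, List.map_nil, List.prod_cons, List.prod_nil, mul_one]
          exact (C.σ_x b hb _).trans (by rw [e]; rfl)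
      · rw [hB] at horb hBl
        simp only [orbitB, Bool.and_eq_true, beq_iff_eq] at horb
        obtain ⟨⟨⟨⟨⟨⟨⟨⟨⟨⟨h1, h2⟩, -⟩, -⟩, -⟩, -⟩, h7⟩, h8⟩, -⟩, -⟩, -⟩ := horb
        have hb := hBl b List.mem_cons_self
        have hb' := hBl b' (by simp)
        refine ⟨by simp [h1, h2], by simp [h7, h8]; simp [comB], ?_, fun t => ?_⟩
        · simp only [InvolFour.E, List.map_cons, List.map_nil, List.prod_cons, List.prod_nil, mul_one, map_mul,
            C.σ_x b hb, C.σ_x b' hb', h1, h2, map_one]
          exact (commute_x hS hR hb' hb h8 1 1).eq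
        · simp only [Sys.P, List.map_cons, List.map_nil, List.prod_cons, List.prod_nil, mul_one, map_mul]
          show C.σ (xGL D F b (t b)) * C.σ (xGL D F b' (t b')) =
            xGL D F b (C.φ (t (d.rt b))) * xGL D F b' (C.φ (t (d.rt b')))
          rw [C.σ_x b hb, C.σ_x b' hb', h1, h2]
          exact (commute_x hS hR hb' hb h8 _ _).eq
      · rw [hB] at horb; simp [orbitB] at horb
    obtain ⟨hBst, hBc, hEfix, hPσ⟩ := hBfacts
    have hdis : ∀ r ∈ st.B, r ∉ st.rest := fun r hr hr' => List.disjoint_of_nodup_append hnd hr hr'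
    have hset : ls n.psi = ls (st.B ++ st.rest) := Set.ext fun r => ⟨fun hr => List.mem_append.2 (hsub r hr),
      fun hr => (List.mem_append.1 hr).elim (hBp r) (hrest r)⟩
    obtain ⟨t, ht⟩ := S.exists_coef hR (hset ▸ hpc) (enum_ls hnd) (hset ▸ hv)
    have hrl : ∀ r ∈ st.rest, r < D.nroots := fun r hr => hlt r (hrest r hr)
    have hrc : UClosed D len (htHom D) (ls st.rest) :=
      closed_of_subset hR (fun x hx => hpos x (hrest x hx)) hrinto
    have hw : S.P st.rest t ∈ S.US (ls st.rest) := S.P_mem hrl fun r hr _ => hr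
    rw [S.P_append] at ht
    -- the coefficients on the orbit are equivariant
    have hcσ : ∀ b ∈ st.B, t (d.rt b) = C.φ (t b) := by
      obtain ⟨t', ht'⟩ := S.exists_coef hR hrc (enum_ls (List.nodup_append.1 hnd).2.1)
        (C.σ_US hrl (fun r hr => hrst r hr) hw)
      let t2 : ℕ → F := fun r => if r ∈ st.B then C.φ (t (d.rt r)) else t' r
      have e : S.P (st.B ++ st.rest) t2 = S.P (st.B ++ st.rest) t := by
        rw [S.P_append, S.P_append, S.P_congr (L := st.B) (t' := fun r => C.φ (t (d.rt r))) fun r hr => by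
          simp [t2, hr], S.P_congr (L := st.rest) (t := t2) (t' := t') fun r hr => by
          simp [t2, show r ∉ st.B from fun h => hdis r h hr], ← hPσ, ← ht', ← map_mul, ← ht, hfix]
      intro b hb
      have h1 := S.coef_unique hR (hset ▸ hpc) (enum_ls hnd) (congrArg S.θ e) b (List.mem_append_left _ hb)
      simp only [t2, if_pos hb] at h1
      rw [← h1, C.φ_invol]
    obtain ⟨b0, hb0, hnot⟩ := hnot
    have hb0ne : t b0 ≠ 0 := by
      intro e
      refine hnot ?_
      rw [ht, ← S.P_append]
      refine S.P_mem (fun r hr => hlt r ?_) fun r hr h0 => List.mem_filter.2 ⟨hr, ?_⟩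
      · exact (List.mem_append.1 hr).elim (hBp r) (hrest r)
      · simp only [bne_iff_ne]
        rintro rfl
        exact h0 e
    have hall : ∀ b ∈ st.B, t b ≠ 0 := by
      intro b hb
      have hcases : b = b0 ∨ b = d.rt b0 := by
        rcases hB : st.B with _ | ⟨x, _ | ⟨x', _ | ⟨x'', L⟩⟩⟩
        · rw [hB] at hb; simp at hb
        · rw [hB] at hb hb0; simp at hb hb0; exact Or.inl (hb.trans hb0.symm)
        · rw [hB] at horb hb hb0
          simp only [orbitB, Bool.and_eq_true, beq_iff_eq] at horb
          have h1 := horb.1.1.1.1.1.1.1.1.1.1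
          have h2 := horb.1.1.1.1.1.1.1.1.1.2
          simp at hb hb0
          rcases hb with rfl | rfl <;> rcases hb0 with rfl | rfl <;>
            first | exact Or.inl rfl | exact Or.inr h2.symm | exact Or.inr h1.symm
        · rw [hB] at horb; simp [orbitB] at horb
      rcases hcases with rfl | rfl
      · exact hb0ne
      · rw [hcσ b0 hb0]
        exact (map_ne_zero C.φ).2 hb0ne
    obtain ⟨h0, hh0, e0, hsc, he0, he1⟩ := exists_tscale C hR horb hBl (c := t) hall hcσ
    have hconjA : h0 * E F n.A * h0⁻¹ = E F n.A := hscaleA h0 e0 hsc he1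
    have hw' : h0 * S.P st.rest t * h0⁻¹ ∈ S.US (ls st.rest) := by
      have hle : S.US (ls st.rest) ≤ (S.US (ls st.rest)).comap (MulAut.conj h0).toMonoidHom := by
        show Subgroup.closure _ ≤ _
        rw [Subgroup.closure_le]
        rintro _ ⟨r, hr, u, rfl⟩
        show h0 * xGL D F r u * h0⁻¹ ∈ S.US (ls st.rest)
        rw [hsc r (hrl r hr)]
        exact S.x_mem_US hr _
      exact hle hw
    set w := h0 * S.P st.rest t * h0⁻¹
    have hPB : h0 * S.P st.B t * h0⁻¹ = E F st.B := by
      have : ∀ L : List ℕ, (∀ b ∈ L, b ∈ st.B) → h0 * S.P L t * h0⁻¹ = E F L := by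
        intro L
        induction L with
        | nil => intro _; simp [Sys.P, InvolFour.E]
        | cons b L ih =>
          intro hL
          have hb := hL b List.mem_cons_self
          have e2 : h0 * xGL D F b (t b) * h0⁻¹ = xGL D F b 1 := by rw [hsc b (hBl b hb), he0 b hb]
          have e3 : h0 * (xGL D F b (t b) * S.P L t) * h0⁻¹ =
              (h0 * xGL D F b (t b) * h0⁻¹) * (h0 * S.P L t * h0⁻¹) := by simp [mul_assoc]
          rw [S.P_cons, E_cons, ← ih fun b' hb' => hL b' (List.mem_cons_of_mem _ hb'), ← e2, ← e3]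
          rfl
      exact this st.B fun b h => h
    have hv' : h0 * v * h0⁻¹ = E F st.B * w := by
      rw [ht, ← hPB]
      simp [w, mul_assoc]
    have hwfix : C.σ w = w := by
      have h1 : C.σ (E F st.B * w) = E F st.B * w := by
        rw [← hv', map_mul, map_mul, map_inv, C.fixed h0 hh0, hfix]
      rw [map_mul, hEfix] at h1
      exact mul_left_cancel h1
    have hsq' : E F st.B * w * (E F st.B * w) = 1 := by
      rw [← hv', _root_.conj_mul, hsq, mul_one, mul_inv_cancel]
    obtain ⟨g, hg, hgT, n', hn', hnf', e⟩ :=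
      tlayers_spec C hR hBl hBc hEfix hpos st.layers st.rest hlay hrest w hw' hwfix hsq'
    have hxn : Commute (E F st.B) n' := commute_E hS hR (fun r hr => hlt r (hperp r hr).1)
      (fun b hb => ⟨hBl b hb, fun r hr => (hperp r hr).2 b hb⟩) hn'
    have hn2 : n' * n' = 1 := by
      have h2 : E F st.B * n' * (E F st.B * n') = 1 := by
        rw [← e, _root_.conj_mul, hsq', mul_one, mul_inv_cancel]
      have hE2 : ∀ L : List ℕ, (∀ b ∈ L, b ∈ st.B) → E (D := D) F L * E F L = 1 := by
        intro L
        induction L with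
        | nil => intro _; simp [InvolFour.E]
        | cons b L ih =>
          intro hL
          have hb := hL b List.mem_cons_self
          have hc : Commute (xGL D F b 1) (E F L) := Commute.list_prod_right _ _ fun z hz => by
            obtain ⟨a, ha, rfl⟩ := List.mem_map.1 hz
            exact commute_x hS hR (hBl b hb) (hBl a (hL a (List.mem_cons_of_mem _ ha)))
              (hBc b hb a (hL a (List.mem_cons_of_mem _ ha))) 1 1
          rw [E_cons, hc.symm.mul_mul_mul_comm, InvolFour.x_self hS (hBl b hb),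
            ih fun b' hb' => hL b' (List.mem_cons_of_mem _ hb'), one_mul]
      rwa [hxn.symm.mul_mul_mul_comm, hE2 st.B fun b h => h, one_mul] at h2
    have hu : g * h0 * (E F n.A * v) * (g * h0)⁻¹ = E F c.A * n' := by
      have e5 : g * h0 * (E F n.A * v) * (g * h0)⁻¹ =
          (g * (h0 * E F n.A * h0⁻¹) * g⁻¹) * (g * (h0 * v * h0⁻¹) * g⁻¹) := by simp [mul_assoc]
      rw [e5, hconjA, hv', e, hcA', E_append, ← (hcA g hg).eq, mul_inv_cancel_right, mul_assoc]
    refine TConj.of_conj C tgts (mul_mem hgT hh0) ?_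
    rw [hu]
    refine hch c hc n' (S.US_mono (fun r hr => hcpsi r hr) hn') hnf' hn2 ?_
    rw [← hu]
    exact fun h1 => hne (conj_eq_one_iff.1 h1)
  -- descend along the chain
  have hgo : ∀ (L : List (List ℕ)) (Ch : List ℕ),
      tchainOK D d n.A n.psi (n.strips.flatMap TStrip.B) n.refls Ch L = true → (∀ r ∈ Ch, r ∈ n.psi) →
      (∀ v ∈ S.US (ls n.psi), C.σ v = v → v * v = 1 → v ∉ S.US (ls Ch) → E F n.A * v ≠ 1 →
        TConj C tgts (E F n.A * v)) →
      ∀ v ∈ S.US (ls n.psi), C.σ v = v → v * v = 1 → v ≠ 1 → E F n.A * v ≠ 1 → TConj C tgts (E F n.A * v) := by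
    intro L
    induction L with
    | nil =>
      intro Ch h _ hC v hv hfix hsq hv1 hne
      simp only [tchainOK, List.isEmpty_iff] at h
      refine hC v hv hfix hsq ?_ hne
      subst h
      intro hmem
      apply hv1
      have hb : S.US (ls []) = ⊥ := by
        rw [Sys.US, Subgroup.closure_eq_bot_iff]
        rintro _ ⟨r, hr, -⟩
        simp [ls] at hr
      rw [hb, Subgroup.mem_bot] at hmem
      exact hmem
    | cons C' t ih =>
      intro Ch h hCp hC v hv hfix hsq hv1 hne
      simp only [tchainOK, Bool.and_eq_true, decide_eq_true_eq, List.all_eq_true, List.contains_iff_mem,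
        Bool.or_eq_true, List.any_eq_true, beq_iff_eq] at h
      obtain ⟨⟨⟨⟨hnd, hCinto⟩, hsub⟩, hcov⟩, hnext⟩ := h
      refine ih C' hnext (fun r hr => hCp r (hsub r hr)) ?_ v hv hfix hsq hv1 hne
      clear! v
      intro v hv hfix hsq hnot hne
      by_cases hvC : v ∈ S.US (ls Ch)
      swap
      · exact hC v hv hfix hsq hvC hne
      have hCc : UClosed D len (htHom D) (ls Ch) := closed_of_subset hR (fun r hr => hpos r (hCp r hr)) hCinto
      obtain ⟨t, ht⟩ := S.exists_coef hR hCc (enum_ls hnd) hvC
      obtain ⟨r, hrC, hr0, hrC'⟩ : ∃ r ∈ Ch, t r ≠ 0 ∧ r ∉ C' := by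
        by_contra hcon
        push Not at hcon
        exact hnot (ht ▸ S.P_mem (fun r hr => hlt r (hCp r hr)) fun r hr h0 => hcon r hr h0)
      rcases (hcov r hrC) with (h1 | h1) | h1
      · exact absurd h1 hrC'
      · obtain ⟨st, hst, hb⟩ := List.mem_flatMap.1 h1
        refine hstrip st hst v hv hfix hsq ⟨r, hb, fun hmem => ?_⟩ hne
        have h := hstr st hst
        simp only [tstripOK, Bool.and_eq_true, List.all_eq_true, List.contains_iff_mem, decide_eq_true_eq,
          Bool.or_eq_true] at h
        have hBp := h.1.1.1.1.1.1.1.1.1.1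
        have hrest := h.1.1.1.1.1.1.2
        set Q := (st.B ++ st.rest).filter fun x => x != r
        have hQp : ∀ x ∈ Q, x ∈ n.psi := fun x hx =>
          (List.mem_append.1 (List.mem_filter.1 hx).1).elim (hBp x) (hrest x)
        have hQc : UClosed D len (htHom D) (ls Q) :=
          closed_of_subset hR (fun x hx => hpos x (hQp x hx)) (h.1.2 r hb)
        have hmem' : v ∈ S.US (ls Ch ∩ ls Q) := by
          rw [← S.US_inf hR hpc hCc hQc (fun x hx => hCp x hx) hQp]
          exact ⟨hvC, hmem⟩
        rw [ht] at hmem'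
        have := (List.mem_filter.1 (S.coef_supp hR hCc (enum_ls hnd) (hCc.inter_closed hQc.closed)
          Set.inter_subset_left hmem' r hrC hr0).2).2
        simp at this
      · obtain ⟨e, -, her, hrefl⟩ := h1
        simp only [treflOK, Bool.and_eq_true, List.all_eq_true, List.contains_iff_mem, beq_iff_eq,
          Bool.not_eq_true'] at hrefl
        obtain ⟨⟨⟨⟨hwA, hwC⟩, hwC'⟩, hQinto⟩, hrQ⟩ := hrefl
        set wd := d.word e.ks
        set g := S.nW wd
        have hgT : g ∈ C.Tw := C.word_mem e.ks
        have hgA : g * E F n.A * g⁻¹ = E F n.A := by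
          have : ∀ L : List ℕ, (∀ a ∈ L, a ∈ n.A) → g * E F L * g⁻¹ = E F L := by
            intro L
            induction L with
            | nil => intro _; simp [InvolFour.E]
            | cons a L ih =>
              intro hL
              have ha := hL a List.mem_cons_self
              have e2 := nW_conj hS hR (F := F) wd (hA a ha).1 1
              rw [hwA a ha] at e2
              have e3 : g * (xGL D F a 1 * E F L) * g⁻¹ =
                  (g * xGL D F a 1 * g⁻¹) * (g * E F L * g⁻¹) := by simp [mul_assoc]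
              rw [E_cons, e3, e2, ih fun b hb => hL b (List.mem_cons_of_mem _ hb)]
          exact this n.A fun a h => h
        have hv' : g * v * g⁻¹ ∈ S.US (ls n.psi) :=
          nW_conj_US hS hR wd (fun x hx => hlt x (hCp x hx)) (fun x hx => hwC x hx) hvC
        have hmul : g * (E F n.A * v) * g⁻¹ = E F n.A * (g * v * g⁻¹) := by
          conv_rhs => rw [← hgA]
          simp [mul_assoc]
        refine TConj.of_conj C tgts hgT ?_
        rw [hmul]
        refine hC _ hv' (by rw [map_mul, map_mul, map_inv, C.fixed g hgT, hfix])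
          (by rw [_root_.conj_mul, hsq, mul_one, mul_inv_cancel]) (fun hmem => ?_) ?_
        swap
        · rw [← hmul]
          exact fun h1 => hne (conj_eq_one_iff.1 h1)
        set Q := Ch.map (act D wd.reverse)
        have hQp : ∀ x ∈ Q, x ∈ n.psi := fun x hx => by
          obtain ⟨c, hc, rfl⟩ := List.mem_map.1 hx
          exact hwC' c hc
        have hQc : UClosed D len (htHom D) (ls Q) := closed_of_subset hR (fun x hx => hpos x (hQp x hx)) hQinto
        have hvQ : v ∈ S.US (ls Q) := by
          have hle : S.US (ls Ch) ≤ (S.US (ls Q)).comap (MulAut.conj g⁻¹).toMonoidHom := by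
            show Subgroup.closure _ ≤ _
            rw [Subgroup.closure_le]
            rintro _ ⟨x, hx, u, rfl⟩
            show g⁻¹ * xGL D F x u * g⁻¹⁻¹ ∈ S.US (ls Q)
            have hxl : x < D.nroots := hlt x (hCp x hx)
            have e4 := nW_conj hS hR (F := F) wd (hR.act_lt wd.reverse hxl) u
            rw [hR.act_act_reverse wd hxl] at e4
            rw [← e4, inv_inv, show g⁻¹ * (g * xGL D F (act D wd.reverse x) u * g⁻¹) * g =
              xGL D F (act D wd.reverse x) u by simp [mul_assoc]]
            exact S.x_mem_US (List.mem_map_of_mem hx) u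
          have := hle hmem
          simpa [mul_assoc] using this
        have hmem' : v ∈ S.US (ls Ch ∩ ls Q) := by
          rw [← S.US_inf hR hpc hCc hQc (fun x hx => hCp x hx) fun x hx => hQp x hx]
          exact ⟨hvC, hvQ⟩
        rw [ht] at hmem'
        have hrQ' : e.r ∉ Q := by simpa [Q] using hrQ
        exact hrQ' (her ▸ (S.coef_supp hR hCc (enum_ls hnd) (hCc.inter_closed hQc.closed) Set.inter_subset_left
          hmem' r hrC hr0).2)
  intro v hv hfix hsq hne
  by_cases hv1 : v = 1
  · subst hv1
    rw [mul_one] at hne ⊢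
    rcases hfus with hnil | hf
    · rw [List.isEmpty_iff.1 hnil] at hne
      simp [InvolFour.E] at hne
    · obtain ⟨T, hT, g, hg, e⟩ := tfuseOK_spec C hR hf
      exact ⟨T, hT, g, hg, e⟩
  · exact hgo n.chain n.psi hchain (fun r h => h) (fun v hv _ _ h _ => absurd hv h) v hv hfix hsq hv1 hne

include C hR in
/-- Soundness of the table. -/
theorem tallOK_spec [Fintype F] {ns : List TNode} (h : tallOK D d tgts ns = true) :
    ∀ c ∈ ns, ∀ v ∈ (glSys hS).US (ls c.psi), C.σ v = v → v * v = 1 → E F c.A * v ≠ 1 →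
      TConj C tgts (E F c.A * v) := by
  induction ns with
  | nil => simp
  | cons n t ih =>
    simp only [tallOK, Bool.and_eq_true] at h
    intro c hc
    rcases List.mem_cons.1 hc with rfl | hc
    · exact tnode_spec C hR tgts h.1 (ih h.2)
    · exact ih h.2 c hc

end Cfsg.Agent.InvolTwist
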